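import Cfsg.Agent.H415.C3.LKit
import Cfsg.Agent.H548.BS.Transf
import Cfsg.Agent.LieClassical.SympCenter

/-!
# S1920, case B, the symplectic row: lifts and gluing (helper105)

* `lin_psp` : `PSp m F` as a quotient of `Sp(V)`, in the form `Lin`;
* `gl z g h` : `g` on `{z = 1}`, `h` on `{z = -1}`.
-/

set_option autoImplicit false

namespace Cfsg.Agent.H105.C3

open Subgroup Cfsg.Agent.H415.C3 Cfsg.Agent.H847.Bs
open Cfsg.Agent.H548.BS (spFrm isSp spHom spHom_injective range_spHom spHom_apply)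

/-- **`PSp`** -/
theorem lin_psp {F : Type} [Field F] {m : ℕ} {G : Type*} [Group G] (e : G ≃* Cfsg.PSp m F) :
    ∃ π : ↥(spFrm (F := F) m).Iso →* G, Lin (spFrm (F := F) m).Iso π := by
  let e1 : Matrix.symplecticGroup (Fin m) F ≃* ↥(spFrm (F := F) m).Iso :=
    (MonoidHom.ofInjective (spHom_injective m)).trans (MulEquiv.subgroupCongr (range_spHom m))
  have he1 : ∀ A, ((e1 A : ↥(spFrm (F := F) m).Iso) : (Fin m ⊕ Fin m → F) ≃ₗ[F] (Fin m ⊕ Fin m → F)) = spHom m A :=
    fun A => rfl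
  let q : Matrix.symplecticGroup (Fin m) F →* Cfsg.PSp m F :=
    QuotientGroup.mk' (Subgroup.center (Matrix.symplecticGroup (Fin m) F))
  have hq : Function.Surjective q := QuotientGroup.mk'_surjective _
  let π : ↥(spFrm (F := F) m).Iso →* G := e.symm.toMonoidHom.comp (q.comp e1.symm.toMonoidHom)
  refine ⟨π, ⟨?_, ?_⟩⟩
  · exact e.symm.surjective.comp (hq.comp e1.symm.surjective)
  · intro g
    obtain ⟨A, rfl⟩ := e1.surjective g
    have h1 : π (e1 A) = e.symm (q A) := by
      change e.symm (q (e1.symm (e1 A))) = _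
      rw [e1.symm_apply_apply]
    rw [h1, MulEquiv.map_eq_one_iff, he1]
    have h2 : q A = 1 ↔ A ∈ Subgroup.center (Matrix.symplecticGroup (Fin m) F) := QuotientGroup.eq_one_iff A
    rw [h2, LieClassical.SympCenter.mem_center_iff]
    constructor
    · rintro ⟨a, ha⟩
      refine ⟨a, fun v => ?_⟩
      rw [spHom_apply, ha, Matrix.smul_mulVec, Matrix.one_mulVec]
    · rintro ⟨a, ha⟩
      refine ⟨a, Matrix.ext_iff_mulVec.2 fun v => ?_⟩
      rw [Matrix.smul_mulVec, Matrix.one_mulVec, ← ha v, spHom_apply]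

section glue

variable {K V : Type*} [Field K] [AddCommGroup V] [Module K V]

/-- the linear map `g` on `{z = 1}`, `h` on `{z = -1}` -/
noncomputable def glf (z g h : V ≃ₗ[K] V) : V →ₗ[K] V :=
  (2 : K)⁻¹ • ((g : V →ₗ[K] V) ∘ₗ (LinearMap.id + (z : V →ₗ[K] V)) + (h : V →ₗ[K] V) ∘ₗ (LinearMap.id - (z : V →ₗ[K] V)))

theorem glf_apply (z g h : V ≃ₗ[K] V) (v : V) :
    glf z g h v = (2 : K)⁻¹ • (g (v + z v) + h (v - z v)) := rfl

variable {z : V ≃ₗ[K] V}

theorem z_z (hz : z * z = 1) (v : V) : z (z v) = v := by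
  have := congrArg (fun f : V ≃ₗ[K] V => f v) hz
  exact this

theorem comm_app {g h : V ≃ₗ[K] V} (hg : g * h = h * g) (v : V) : g (h v) = h (g v) := by
  have := congrArg (fun f : V ≃ₗ[K] V => f v) hg
  exact this

theorem half_add (h2 : (2 : K) ≠ 0) (v : V) : (2 : K)⁻¹ • (v + v) = v := by
  rw [← two_smul K v, smul_smul, inv_mul_cancel₀ h2, one_smul]

theorem glf_comp (h2 : (2 : K) ≠ 0) (hz : z * z = 1) {g h g' h' : V ≃ₗ[K] V} (hg : g' * z = z * g') (hh : h' * z = z * h')
    (v : V) : glf z g h (glf z g' h' v) = glf z (g * g') (h * h') v := by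
  have e1 : glf z g' h' v + z (glf z g' h' v) = g' (v + z v) := by
    rw [glf_apply, map_smul, map_add z, ← comm_app hg, ← comm_app hh, map_add z v, map_sub z v, z_z hz, ← smul_add]
    have : g' (v + z v) + h' (v - z v) + (g' (z v + v) + h' (z v - v)) = g' (v + z v) + g' (v + z v) := by
      rw [add_comm (z v) v, ← neg_sub v (z v), map_neg]; abel
    rw [this, half_add h2]
  have e2 : glf z g' h' v - z (glf z g' h' v) = h' (v - z v) := by
    rw [glf_apply, map_smul, map_add z, ← comm_app hg, ← comm_app hh, map_add z v, map_sub z v, z_z hz, ← smul_sub]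
    have : g' (v + z v) + h' (v - z v) - (g' (z v + v) + h' (z v - v)) = h' (v - z v) + h' (v - z v) := by
      rw [add_comm (z v) v, ← neg_sub v (z v), map_neg]; abel
    rw [this, half_add h2]
  rw [glf_apply z g h, e1, e2, glf_apply]
  rfl

theorem glf_one (h2 : (2 : K) ≠ 0) (v : V) : glf z 1 1 v = v := by
  rw [glf_apply]
  change (2 : K)⁻¹ • ((v + z v) + (v - z v)) = v
  rw [show (v + z v) + (v - z v) = v + v by abel, half_add h2]

theorem comm_inv {g : V ≃ₗ[K] V} (hg : g * z = z * g) : g⁻¹ * z = z * g⁻¹ :=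
  ((show Commute g z from hg).inv_left).eq

/-- `g` on `{z = 1}`, `h` on `{z = -1}` -/
noncomputable def gl (h2 : (2 : K) ≠ 0) (hz : z * z = 1) {g h : V ≃ₗ[K] V} (hg : g * z = z * g) (hh : h * z = z * h) :
    V ≃ₗ[K] V :=
  LinearEquiv.ofLinearMap (glf z g h) (glf z g⁻¹ h⁻¹)
    (by
      ext v
      change glf z g h (glf z g⁻¹ h⁻¹ v) = v
      rw [glf_comp h2 hz (comm_inv hg) (comm_inv hh), mul_inv_cancel, mul_inv_cancel, glf_one h2])
    (by
      ext v
      change glf z g⁻¹ h⁻¹ (glf z g h v) = v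
      rw [glf_comp h2 hz hg hh, inv_mul_cancel, inv_mul_cancel, glf_one h2])

variable (h2 : (2 : K) ≠ 0) (hz : z * z = 1) {g h : V ≃ₗ[K] V} (hg : g * z = z * g) (hh : h * z = z * h)

include h2 in
theorem gl_apply (v : V) : gl h2 hz hg hh v = (2 : K)⁻¹ • (g (v + z v) + h (v - z v)) := rfl

theorem gl_pos {v : V} (hv : z v = v) : gl h2 hz hg hh v = g v := by
  rw [gl_apply, hv, sub_self, map_zero, add_zero, map_add, half_add h2]

theorem gl_neg {v : V} (hv : z v = -v) : gl h2 hz hg hh v = h v := by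
  rw [gl_apply, hv, add_neg_cancel, map_zero, zero_add, sub_neg_eq_add, map_add, half_add h2]

/-- linear maps agreeing on `{z = 1}` and `{z = -1}` -/
theorem ext_pm (h2 : (2 : K) ≠ 0) (hz : z * z = 1) {a b : V ≃ₗ[K] V} (h1 : ∀ v, z v = v → a v = b v)
    (h3 : ∀ v, z v = -v → a v = b v) : a = b := by
  ext v
  have hp : z (v + z v) = v + z v := by rw [map_add, z_z hz, add_comm]
  have hm : z (v - z v) = -(v - z v) := by rw [map_sub, z_z hz, neg_sub]
  have e : v = (2 : K)⁻¹ • ((v + z v) + (v - z v)) := by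
    rw [show (v + z v) + (v - z v) = v + v by abel, half_add h2]
  generalize v + z v = a' at hp e
  generalize v - z v = b' at hm e
  rw [e, map_smul, map_smul, map_add, map_add, h1 _ hp, h3 _ hm]

/-- isometries -/
theorem gl_mem {Φ : Frm K V} (hΦ : IsSp Φ) (hzΦ : z ∈ Φ.Iso) (hgΦ : g ∈ Φ.Iso) (hhΦ : h ∈ Φ.Iso) :
    gl h2 hz hg hh ∈ Φ.Iso := by
  have key : ∀ a b : V, z a = a → z b = -b → Φ.B a b = 0 ∧ Φ.B b a = 0 := by
    intro a b ha hb
    have h1 := hzΦ.1 a b
    have h3 := hzΦ.1 b a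
    have e1 : ∀ x y : V, Φ.B x (-y) = - Φ.B x y := by
      intro x y
      rw [← neg_one_smul K y, Φ.smul_right, hΦ.s, neg_one_mul]
    have e2 : ∀ x y : V, Φ.B (-x) y = - Φ.B x y := by
      intro x y
      rw [← neg_one_smul K x, Φ.smul_left, neg_one_mul]
    rw [ha, hb, e1] at h1
    rw [ha, hb, e2] at h3
    constructor
    · have h4 : (2 : K) * Φ.B a b = 0 := by linear_combination (-1 : K) * h1
      exact (mul_eq_zero.1 h4).resolve_left h2
    · have h4 : (2 : K) * Φ.B b a = 0 := by linear_combination (-1 : K) * h3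
      exact (mul_eq_zero.1 h4).resolve_left h2
  refine ⟨fun v w => ?_, fun v => by rw [hΦ.q, hΦ.q]⟩
  have hp : ∀ v : V, z (v + z v) = v + z v := fun v => by rw [map_add, z_z hz, add_comm]
  have hm : ∀ v : V, z (v - z v) = -(v - z v) := fun v => by rw [map_sub, z_z hz, neg_sub]
  have e : ∀ v : V, v = (2 : K)⁻¹ • ((v + z v) + (v - z v)) := fun v => by
    rw [show (v + z v) + (v - z v) = v + v by abel, half_add h2]
  rw [gl_apply, gl_apply]
  conv_rhs => rw [e v, e w]
  have hpv := hp v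
  have hpw := hp w
  have hmv := hm v
  have hmw := hm w
  generalize v + z v = a1 at hpv
  generalize v - z v = b1 at hmv
  generalize w + z w = a2 at hpw
  generalize w - z w = b2 at hmw
  rw [Φ.smul_left, Φ.smul_right, hΦ.s, Φ.smul_left, Φ.smul_right, hΦ.s]
  congr 2
  rw [Φ.add_left, Φ.add_right, Φ.add_right, Φ.add_left, Φ.add_right, Φ.add_right, hgΦ.1, hhΦ.1,
    (key _ _ hpv hmw).1, (key _ _ hpw hmv).2,
    (key (g a1) (h b2) (by rw [← comm_app hg, hpv]) (by rw [← comm_app hh, hmw, map_neg])).1,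
    (key (g a2) (h b1) (by rw [← comm_app hg, hpw]) (by rw [← comm_app hh, hmv, map_neg])).2]

end glue

end Cfsg.Agent.H105.C3
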