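import Cfsg.Agent.H105.C3.PspThree

/-!
# S1920, case B, the symplectic row: the contradiction (helper105)

`psp_false` : there is no lifted kit in `Sp(V)`, odd characteristic.
-/

set_option autoImplicit false
set_option linter.unusedSectionVars false
set_option linter.unusedVariables false

namespace Cfsg.Agent.H105.C3

open Subgroup Cfsg.Agent.H415.C3 Cfsg.Agent.H847.Bs Cfsg.Agent.H527.C3

variable {G : Type*} [Group G] {K V : Type*} [Field K] [AddCommGroup V] [Module K V]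
variable {Φ : Frm K V} {π : ↥Φ.Iso →* G}
variable {N0 A E : Subgroup G} {z s x r : G} {ψ : ↥A →* Equiv.Perm (Fin 6)}
variable {Nh Eh : Subgroup (V ≃ₗ[K] V)} {zh sh xh rh ζ : V ≃ₗ[K] V}

/-- the symmetric form `h(u, w) = B(u, sh w)` on `V_c` -/
noncomputable def hc (hΦ : IsSp Φ) (ζ sh : V ≃ₗ[K] V) : LinearMap.BilinForm K (Wc ζ) :=
  LinearMap.mk₂ K (fun u w => Φ.B (u : V) (sh (w : V)))
    (fun u v w => Φ.add_left _ _ _)
    (fun c u w => Φ.smul_left _ _ _)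
    (fun u v w => by
      change Φ.B (u : V) (sh ((v : V) + (w : V))) = _
      rw [map_add, Φ.add_right])
    (fun c u w => by
      change Φ.B (u : V) (sh (c • (w : V))) = _
      rw [map_smul, Φ.smul_right, hΦ.s, smul_eq_mul])

theorem hc_apply (hΦ : IsSp Φ) (u w : Wc ζ) : hc hΦ ζ sh u w = Φ.B (u : V) (sh (w : V)) := rfl

theorem B_neg_right (hΦ : IsSp Φ) (x y : V) : Φ.B x (-y) = - Φ.B x y := by
  rw [← neg_one_smul K y, Φ.smul_right, hΦ.s, neg_one_mul]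

theorem B_neg_left (hΦ : IsSp Φ) (x y : V) : Φ.B (-x) y = - Φ.B x y := by
  rw [← neg_one_smul K x, Φ.smul_left, neg_one_mul]

theorem B_swap (hΦ : IsSp Φ) (x y : V) : Φ.B y x = - Φ.B x y := by
  have h := hΦ.alt (x + y)
  rw [Φ.add_left, Φ.add_right, Φ.add_right, hΦ.alt, hΦ.alt, zero_add, add_zero] at h
  linear_combination h

variable (LK : LKit Φ.Iso π N0 A E z s x r Nh Eh zh sh xh rh) (Z : Zt Φ zh sh ζ)

include LK Z in
theorem Nh_cen : Nh ≤ centralizer {ζ} := fun _ hn => mem_cen' (n_ζ LK Z hn)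

include LK Z in
theorem Eh_cen : Eh ≤ centralizer {ζ} := fun _ he => mem_cen' (e_ζ LK Z he)

/-- the restriction of `Nh` -/
noncomputable def NNc (Nh : Subgroup (V ≃ₗ[K] V)) (ζ : V ≃ₗ[K] V) : Subgroup (Module.End K (Wc ζ))ˣ :=
  (Nh.subgroupOf (centralizer {ζ})).map (res ζ)

theorem mem_NNc {f : (Module.End K (Wc ζ))ˣ} :
    f ∈ NNc Nh ζ ↔ ∃ n ∈ Nh, ∃ h : n ∈ centralizer {ζ}, res ζ ⟨n, h⟩ = f := by
  constructor
  · rintro ⟨⟨n, hn⟩, hn', rfl⟩
    exact ⟨n, mem_subgroupOf.1 hn', hn, rfl⟩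
  · rintro ⟨n, hn, h, rfl⟩
    exact ⟨⟨n, h⟩, mem_subgroupOf.2 hn, rfl⟩

include LK Z in
theorem exists_c {n : V ≃ₗ[K] V} (hn : n ∈ Nh) {c : K} (hc : c = 1 ∨ c = -1) {a : V → V}
    (ha : (∀ v, n v = c • a v) ∨ (∀ v, n v = c • zh (a v))) (hζ : ∀ v, ζ v = v → ζ (a v) = a v) :
    (∀ v, ζ v = v → n v = a v) ∨ (∀ v, ζ v = v → n v = - a v) := by
  have key : ∃ d : K, (d = 1 ∨ d = -1) ∧ ∀ v, ζ v = v → n v = d • a v := by
    rcases ha with h3 | h3
    · exact ⟨c, hc, fun v _ => h3 v⟩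
    · rcases Z.zh_eq with h4 | h4
      · refine ⟨c, hc, fun v hv => ?_⟩
        rw [h3 v, h4, hζ v hv]
      · refine ⟨-c, by rcases hc with rfl | rfl <;> simp, fun v hv => ?_⟩
        rw [h3 v, h4, hζ v hv, smul_neg, neg_smul]
  obtain ⟨d, hd, h5⟩ := key
  rcases hd with rfl | rfl
  · left
    intro v hv
    rw [h5 v hv, one_smul]
  · right
    intro v hv
    rw [h5 v hv, neg_one_smul]

variable (K0 : Kit N0 A E z s x r ψ) (L : Lin Φ.Iso π)

/-- **there is no lifted kit in `Sp(V)`** -/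
theorem psp_false [Finite G] [Finite K] [Finite V] (h2 : (2 : K) ≠ 0) (hΦ : IsSp Φ) (K0 : Kit N0 A E z s x r ψ)
    (L : Lin Φ.Iso π) (LK : LKit Φ.Iso π N0 A E z s x r Nh Eh zh sh xh rh) : False := by
  classical
  obtain ⟨ζ, Z⟩ := exists_Zt h2 hΦ LK
  have hVn := nontriv LK
  have hs : ∀ n ∈ Nh, ∀ v, n (sh v) = sh (n v) := fun n hn v => s_comm' LK Z K0 L h2 hΦ hn v
  have hsC : sh ∈ centralizer {ζ} := Nh_cen LK Z LK.sN
  let J : (Module.End K (Wc ζ))ˣ := res ζ ⟨sh, hsC⟩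
  have hJ : ∀ w : Wc ζ, ((J • w : Wc ζ) : V) = sh (w : V) := fun w => rfl
  have hJ2 : J * J = -1 := by
    refine Units.ext (LinearMap.ext fun w => Subtype.ext ?_)
    change sh (sh (w : V)) = -(w : V)
    rw [Z.s_sq, mem_Wc.1 w.2]
  have hJN : J ∈ NNc Nh ζ := mem_NNc.2 ⟨sh, LK.sN, hsC, rfl⟩
  have hsΦ : sh ∈ Φ.Iso := Nh_le LK LK.sN
  -- skew-adjointness of `sh` on `V_c`
  have hskew : ∀ u w : Wc ζ, Φ.B (sh (u : V)) (w : V) = - Φ.B (u : V) (sh (w : V)) := by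
    intro u w
    have h3 := hsΦ.1 (sh (u : V)) (w : V)
    rw [Z.s_sq, mem_Wc.1 u.2, B_neg_left hΦ] at h3
    exact h3.symm
  let h := hc hΦ ζ sh
  have hh : ∀ u w : Wc ζ, h u w = Φ.B (u : V) (sh (w : V)) := fun _ _ => rfl
  have hB : ∀ u w : Wc ζ, Φ.B (u : V) (w : V) = - h u (J • w) := by
    intro u w
    rw [hh, hJ, Z.s_sq, mem_Wc.1 w.2, B_neg_right hΦ, neg_neg]
  have hD : Dat h (NNc Nh ζ) J := by
    refine ⟨h2, fun u v => ?_, fun u hu => ?_, ?_, ?_, hJN, hJ2, ?_, ?_, ?_⟩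
    · rw [hh, hh, B_swap hΦ (sh (u : V)) (v : V), hskew, neg_neg]
    · -- nondegenerate
      have h3 : (u : V) = 0 := by
        apply hΦ.nd
        intro v
        have hp : ζ (v + ζ v) = v + ζ v := by rw [map_add, z_z Z.sq, add_comm]
        have hm : ζ (v - ζ v) = -(v - ζ v) := by rw [map_sub, z_z Z.sq, neg_sub]
        have e : v = (2 : K)⁻¹ • ((v + ζ v) + (v - ζ v)) := by
          rw [show (v + ζ v) + (v - ζ v) = v + v by abel, half_add h2]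
        generalize v + ζ v = a' at hp e
        generalize v - ζ v = b' at hm e
        rw [e, Φ.smul_right, Φ.add_right, (orth_pm hΦ h2 Z.mem (mem_Wc.1 u.2) hm).1, add_zero]
        have h4 : Φ.B (u : V) a' = - h u (J • ⟨a', hp⟩) := hB u ⟨a', hp⟩
        rw [h4, hu, neg_zero, mul_zero]
      exact Subtype.ext h3
    · -- isometries
      intro f hf u w
      obtain ⟨n, hn, hnC, rfl⟩ := mem_NNc.1 hf
      rw [hh, hh, res_apply, res_apply]
      change Φ.B (n (u : V)) (sh (n (w : V))) = _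
      rw [← hs n hn, (Nh_le LK hn).1]
    · rw [← hJ2]
      exact mul_mem hJN hJN
    · -- squares
      intro f hf
      obtain ⟨n, hn, hnC, rfl⟩ := mem_NNc.1 hf
      obtain ⟨c, hc0, hc1⟩ := LK.sq n hn
      have hnΦ : n ∈ Φ.Iso := Nh_le LK hn
      have hzΦ : zh ∈ Φ.Iso := Nh_le LK LK.zN
      have hcc : c = 1 ∨ c = -1 := by
        rcases hc1 with hc1 | hc1
        · exact sc_sq hΦ (mul_mem hnΦ hnΦ) (one_mem _) hc1
        · exact sc_sq hΦ (mul_mem hnΦ hnΦ) hzΦ hc1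
      rcases exists_c LK Z (mul_mem hn hn) hcc (a := id) hc1 (fun v hv => hv) with h3 | h3
      · left
        refine Units.ext (LinearMap.ext fun w => Subtype.ext ?_)
        exact h3 (w : V) w.2
      · right
        refine Units.ext (LinearMap.ext fun w => Subtype.ext ?_)
        exact h3 (w : V) w.2
    · -- commutators
      intro f hf g hg
      obtain ⟨n, hn, hnC, rfl⟩ := mem_NNc.1 hf
      obtain ⟨m, hm, hmC, rfl⟩ := mem_NNc.1 hg
      obtain ⟨c, hcc, hc1⟩ := LK.comm n hn m hm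
      rcases exists_c LK Z (mul_mem hn hm) hcc (a := fun v => m (n v)) hc1
        (fun v hv => by rw [← n_ζ LK Z hm, ← n_ζ LK Z hn, hv]) with h3 | h3
      · left
        refine Units.ext (LinearMap.ext fun w => Subtype.ext ?_)
        exact h3 (w : V) w.2
      · right
        refine Units.ext (LinearMap.ext fun w => Subtype.ext ?_)
        exact h3 (w : V) w.2
    · intro f hf
      obtain ⟨n, hn, hnC, rfl⟩ := mem_NNc.1 hf
      refine Units.ext (LinearMap.ext fun w => Subtype.ext ?_)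
      exact hs n hn (w : V)
  -- `EE`
  let EE : Subgroup (Module.End K (Wc ζ))ˣ := (Eh.subgroupOf (centralizer {ζ})).map (res ζ)
  have hEE : ⁅EE, EE⁆ = EE := perf_map LK.Eh_perf (Eh_cen LK Z) (res ζ)
  have hEc : EE ≤ cen h (NNc Nh ζ) := by
    rintro _ ⟨⟨e, heC⟩, he', rfl⟩
    have he : e ∈ Eh := mem_subgroupOf.1 he'
    rw [mem_cen]
    constructor
    · intro u w
      rw [hh, hh, res_apply, res_apply]
      change Φ.B (e (u : V)) (sh (e (w : V))) = _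
      rw [← comm_app (LK.Eh_comm e he sh LK.sN), (LK.Eh_le he).1]
    · intro f hf
      obtain ⟨n, hn, hnC, rfl⟩ := mem_NNc.1 hf
      refine Units.ext (LinearMap.ext fun w => Subtype.ext ?_)
      exact (comm_app (LK.Eh_comm e he n hn) (w : V)).symm
  have hfE : Finite (Module.End K (Wc ζ)) := Finite.of_injective (fun f => (f : Wc ζ → Wc ζ)) DFunLike.coe_injective
  have hfin : Fintype ↥(NNc Nh ζ) := Fintype.ofFinite _
  have hWn : Nontrivial (Wc ζ) := by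
    obtain ⟨v, hv, hvζ⟩ := Z.pos
    exact ⟨⟨v, hvζ⟩, 0, fun h3 => hv (congrArg Subtype.val h3)⟩
  -- commutation of the extension with elements of `Nh`
  have hexn : ∀ (f : (Module.End K (Wc ζ))ˣ) (n : V ≃ₗ[K] V) (hnC : n ∈ centralizer {ζ}),
      f * res ζ ⟨n, hnC⟩ = res ζ ⟨n, hnC⟩ * f → ∀ v, ex h2 Z.sq f (n v) = n (ex h2 Z.sq f v) := by
    intro f n hnC hf v
    have hnζ : ∀ v, n (ζ v) = ζ (n v) := fun v => cen_app ⟨n, hnC⟩ v
    refine lin_ext h2 Z.sq (f := (ex h2 Z.sq f : V →ₗ[K] V) ∘ₗ (n : V →ₗ[K] V))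
      (g := (n : V →ₗ[K] V) ∘ₗ (ex h2 Z.sq f : V →ₗ[K] V)) (fun w => ?_) (fun v hv => ?_) v
    · change ex h2 Z.sq f (n w) = n (ex h2 Z.sq f w)
      rw [ex_pos h2]
      have h3 : n (w : V) = ((res ζ ⟨n, hnC⟩ • w : Wc ζ) : V) := rfl
      rw [h3, ex_pos h2, ← mul_smul, hf, mul_smul, res_apply]
    · change ex h2 Z.sq f (n v) = n (ex h2 Z.sq f v)
      rw [ex_neg h2 Z.sq f hv, ex_neg h2 Z.sq f (by rw [← hnζ, hv, map_neg])]
  -- isometries of `h` commuting with `J` are isometries of `Φ`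
  have hisoJ : ∀ f : (Module.End K (Wc ζ))ˣ, f ∈ isoms h → f * J = J * f → ex h2 Z.sq f ∈ Φ.Iso := by
    intro f hf hfJ
    refine ex_mem h2 Z.sq f hΦ Z.mem fun u w => ?_
    rw [hB, hB, ← mul_smul J f, ← hfJ, mul_smul, hf]
  rcases str_alt hD hEE hEc with ⟨a, b, v₁, v₂, v₃, O⟩ | ⟨t, O⟩
  · have haJ : a * J = J * a := O.an J hJN
    have hbJ : b * J = J * b := O.bn J hJN
    have v1 : (v₁ : V) ≠ 0 := by
      intro h3
      have h4 := O.h1
      rw [hh, h3, show Φ.B (0 : V) (sh 0) = 0 by rw [map_zero]; exact hΦ.alt 0] at h4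
      exact zero_ne_one h4
    have v2 : (v₂ : V) ≠ 0 := by
      intro h3
      have h4 := O.h2
      rw [hh, h3, show Φ.B (0 : V) (sh 0) = 0 by rw [map_zero]; exact hΦ.alt 0] at h4
      exact zero_ne_one h4
    have v3 : Φ.B (v₃ : V) (sh (v₃ : V)) ≠ 0 := by
      have h4 := O.h3
      rw [hh] at h4
      rw [h4]
      exact one_ne_zero
    have hnN : ∀ n (hn : n ∈ Nh), res ζ ⟨n, Nh_cen LK Z hn⟩ ∈ NNc Nh ζ := fun n hn => mem_NNc.2 ⟨n, hn, _, rfl⟩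
    refine no_ab LK Z K0 L h2 hΦ (a := ex h2 Z.sq a) (b := ex h2 Z.sq b) (hisoJ a O.ai haJ) (hisoJ b O.bi hbJ)
      (fun n hn => hexn a n (Nh_cen LK Z hn) (O.an _ (hnN n hn)))
      (fun n hn => hexn b n (Nh_cen LK Z hn) (O.bn _ (hnN n hn))) (fun v => ?_) v1 v2 v3 v₁.2 v₂.2 v₃.2
      ?_ ?_ ?_ ?_ ?_ ?_ (fun v => ?_) (fun v => ?_) (hexn a sh hsC haJ)
    · refine lin_ext h2 Z.sq (f := (ex h2 Z.sq a : V →ₗ[K] V) ∘ₗ (ex h2 Z.sq b : V →ₗ[K] V))
        (g := (ex h2 Z.sq b : V →ₗ[K] V) ∘ₗ (ex h2 Z.sq a : V →ₗ[K] V)) (fun w => ?_) (fun v hv => ?_) v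
      · change ex h2 Z.sq a (ex h2 Z.sq b w) = ex h2 Z.sq b (ex h2 Z.sq a w)
        rw [ex_pos h2, ex_pos h2, ex_pos h2, ex_pos h2, ← mul_smul, ← mul_smul, O.ab]
      · change ex h2 Z.sq a (ex h2 Z.sq b v) = ex h2 Z.sq b (ex h2 Z.sq a v)
        rw [ex_neg h2 _ b hv, ex_neg h2 _ a hv, ex_neg h2 _ b hv]
    · rw [ex_pos h2, O.a1]; rfl
    · rw [ex_pos h2, O.b1]
    · rw [ex_pos h2, O.a2]
    · rw [ex_pos h2, O.b2']; rfl
    · rw [ex_pos h2, O.a3]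
    · rw [ex_pos h2, O.b3]
    · refine lin_ext h2 Z.sq (f := (ex h2 Z.sq a : V →ₗ[K] V) ∘ₗ (ex h2 Z.sq a : V →ₗ[K] V) ∘ₗ
        (ex h2 Z.sq a : V →ₗ[K] V) ∘ₗ (ex h2 Z.sq a : V →ₗ[K] V)) (g := LinearMap.id) (fun w => ?_) (fun v hv => ?_) v
      · change ex h2 Z.sq a (ex h2 Z.sq a (ex h2 Z.sq a (ex h2 Z.sq a w))) = w
        have h4 : a * a * a * a = 1 := by rw [← O.a4]; group
        rw [ex_pos h2, ex_pos h2, ex_pos h2, ex_pos h2, ← mul_smul, ← mul_smul, ← mul_smul, h4, one_smul]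
      · change ex h2 Z.sq a (ex h2 Z.sq a (ex h2 Z.sq a (ex h2 Z.sq a v))) = v
        rw [ex_neg h2 _ a hv, ex_neg h2 _ a hv, ex_neg h2 _ a hv, ex_neg h2 _ a hv]
    · refine lin_ext h2 Z.sq (f := (ex h2 Z.sq b : V →ₗ[K] V) ∘ₗ (ex h2 Z.sq b : V →ₗ[K] V)) (g := LinearMap.id)
        (fun w => ?_) (fun v hv => ?_) v
      · change ex h2 Z.sq b (ex h2 Z.sq b w) = w
        rw [ex_pos h2, ex_pos h2, ← mul_smul, O.b2, one_smul]
      · change ex h2 Z.sq b (ex h2 Z.sq b v) = v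
        rw [ex_neg h2 _ b hv, ex_neg h2 _ b hv]
  · refine no_t LK Z K0 L h2 (t := ex h2 Z.sq t) ?_ (ex_ζ h2 Z.sq t) (fun v hv => ex_neg h2 Z.sq t hv) ?_ ?_ ?_
    · refine ex_mem h2 Z.sq t hΦ Z.mem fun u w => ?_
      have h3 : J • t • w = -(t • J • w) := by
        rw [← mul_smul, ← mul_smul, O.tJ, Units.neg_smul, neg_neg]
      rw [hB, hB, h3, map_neg, O.anti, neg_neg]
    · intro n hn
      have hnC := Nh_cen LK Z hn
      rcases O.tn (res ζ ⟨n, hnC⟩) (mem_NNc.2 ⟨n, hn, hnC, rfl⟩) with h3 | h3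
      · left
        intro v hv
        have h4 : ex h2 Z.sq t v = ((t • (⟨v, hv⟩ : Wc ζ) : Wc ζ) : V) := ex_pos h2 Z.sq t ⟨v, hv⟩
        have h5 : n v = ((res ζ ⟨n, hnC⟩ • (⟨v, hv⟩ : Wc ζ) : Wc ζ) : V) := rfl
        rw [h4, h5, ex_pos h2, ← mul_smul, h3, mul_smul, res_apply]
      · right
        intro v hv
        have h4 : ex h2 Z.sq t v = ((t • (⟨v, hv⟩ : Wc ζ) : Wc ζ) : V) := ex_pos h2 Z.sq t ⟨v, hv⟩
        have h5 : n v = ((res ζ ⟨n, hnC⟩ • (⟨v, hv⟩ : Wc ζ) : Wc ζ) : V) := rfl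
        rw [h4, h5, ex_pos h2, ← mul_smul, h3, Units.neg_smul, mul_smul]
        rfl
    · intro e he v hv
      have heC := Eh_cen LK Z he
      have h3 := O.te (res ζ ⟨e, heC⟩) ⟨⟨e, heC⟩, mem_subgroupOf.2 he, rfl⟩
      have h4 : ex h2 Z.sq t v = ((t • (⟨v, hv⟩ : Wc ζ) : Wc ζ) : V) := ex_pos h2 Z.sq t ⟨v, hv⟩
      have h5 : e v = ((res ζ ⟨e, heC⟩ • (⟨v, hv⟩ : Wc ζ) : Wc ζ) : V) := rfl
      rw [h4, h5, ex_pos h2, ← mul_smul, h3, mul_smul, res_apply]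
    · intro v hv
      have h4 : ex h2 Z.sq t v = ((t • (⟨v, hv⟩ : Wc ζ) : Wc ζ) : V) := ex_pos h2 Z.sq t ⟨v, hv⟩
      have h5 : sh v = ((J • (⟨v, hv⟩ : Wc ζ) : Wc ζ) : V) := rfl
      rw [h4, h5, ex_pos h2, ← mul_smul, O.tJ, Units.neg_smul, mul_smul]
      rfl

end Cfsg.Agent.H105.C3
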