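import Cfsg.Agent.H105.C3.Gl
import Cfsg.Agent.H415.C3.KitTwo

/-!
# S1920, case B, the symplectic row: first step (helper105)

* `mem_A_of`, `T1h`, `T5h` : the lemmas T1 and T5 for the lifts;
* `s_comm` : `sh` commutes with `Nh`; `s_sq` : `sh * sh = zh` or `sh * sh = -zh`.
-/

set_option autoImplicit false
set_option linter.unusedSectionVars false

namespace Cfsg.Agent.H105.C3

open Subgroup Cfsg.Agent.H415.C3 Cfsg.Agent.H847.Bs

section lifts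

variable {G : Type*} [Group G] {K V : Type*} [Field K] [AddCommGroup V] [Module K V]
variable {Gh : Subgroup (V ≃ₗ[K] V)} {π : ↥Gh →* G}

theorem isSc_iff {a b : V ≃ₗ[K] V} : IsSc (a * b⁻¹) ↔ ∃ c : K, ∀ v, a v = c • b v := by
  constructor
  · rintro ⟨c, hc⟩
    refine ⟨c, fun v => ?_⟩
    have h1 := hc (b v)
    have h3 : (a * b⁻¹) (b v) = a v := congrArg a (b.symm_apply_apply v)
    rw [← h3, h1]
  · rintro ⟨c, hc⟩
    refine ⟨c, fun v => ?_⟩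
    have h3 : (a * b⁻¹) v = a (b⁻¹ v) := rfl
    have h4 : b (b⁻¹ v) = v := b.apply_symm_apply v
    rw [h3, hc, h4]

theorem pi_eq_iff (L : Lin Gh π) {a b : V ≃ₗ[K] V} (ha : a ∈ Gh) (hb : b ∈ Gh) :
    π ⟨a, ha⟩ = π ⟨b, hb⟩ ↔ ∃ c : K, ∀ v, a v = c • b v := by
  rw [← mul_inv_eq_one, ← map_inv, ← map_mul, L.ker, ← isSc_iff]
  rfl

variable {N0 A E : Subgroup G} {z s x r : G} {ψ : ↥A →* Equiv.Perm (Fin 6)}
variable {Nh Eh : Subgroup (V ≃ₗ[K] V)} {zh sh xh rh : V ≃ₗ[K] V}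

/-- `g` commutes with `Nh` up to scalars and `zh` -/
def CN (Nh : Subgroup (V ≃ₗ[K] V)) (zh g : V ≃ₗ[K] V) : Prop :=
  ∀ n ∈ Nh, ∃ c : K, (∀ v, g (n v) = c • n (g v)) ∨ (∀ v, g (n v) = c • zh (n (g v)))

theorem Nh_le (LK : LKit Gh π N0 A E z s x r Nh Eh zh sh xh rh) : Nh ≤ Gh := fun n hn => ((LK.mem_Nh n).1 hn).1

theorem exists_lift (L : Lin Gh π) (LK : LKit Gh π N0 A E z s x r Nh Eh zh sh xh rh) {n : G} (hn : n ∈ N0) :
    ∃ m ∈ Nh, ∃ h : m ∈ Gh, π ⟨m, h⟩ = n := by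
  obtain ⟨⟨m, hm⟩, h⟩ := L.surj n
  exact ⟨m, (LK.mem_Nh m).2 ⟨hm, h ▸ hn⟩, hm, h⟩

theorem mem_A_of (K0 : Kit N0 A E z s x r ψ) (L : Lin Gh π) (LK : LKit Gh π N0 A E z s x r Nh Eh zh sh xh rh)
    {g : V ≃ₗ[K] V} (hg : g ∈ Gh) (h : CN Nh zh g) : π ⟨g, hg⟩ ∈ A := by
  rw [K0.mem_A]
  intro n0 hn0
  obtain ⟨n, hn, hnG, rfl⟩ := exists_lift L LK hn0
  obtain ⟨c, hc | hc⟩ := h n hn
  · left
    have h1 := (pi_eq_iff L (mul_mem hg hnG) (mul_mem hnG hg)).2 ⟨c, hc⟩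
    rw [← map_mul, ← map_mul]
    exact h1
  · right
    have hzG : zh ∈ Gh := Nh_le LK LK.zN
    have h1 := (pi_eq_iff L (mul_mem hg hnG) (mul_mem hzG (mul_mem hnG hg))).2 ⟨c, hc⟩
    have h2 : z = π ⟨zh, hzG⟩ := (LK.pi_z hzG).symm
    rw [h2, ← map_mul, ← map_mul, ← map_mul]
    exact h1

/-- **T1 for lifts** -/
theorem T1h (K0 : Kit N0 A E z s x r ψ) (L : Lin Gh π) (LK : LKit Gh π N0 A E z s x r Nh Eh zh sh xh rh)
    {g : V ≃ₗ[K] V} (hg : g ∈ Gh) (h : CN Nh zh g) (hE : ∀ e ∈ Eh, ∀ v, g (e v) = e (g v)) :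
    ∃ c : K, ∀ v, g (sh v) = c • sh (g v) := by
  have hsG : sh ∈ Gh := Nh_le LK LK.sN
  have h1 := K0.T1 (mem_A_of K0 L LK hg h) (fun e he => by
    obtain ⟨e', he', hpe⟩ := LK.Eh_surj e he
    have heG := LK.Eh_le he'
    rw [← hpe heG, ← map_mul, ← map_mul]
    refine congrArg π (Subtype.ext ?_)
    ext v
    exact hE e' he' v)
  have h2 : s = π ⟨sh, hsG⟩ := (LK.pi_s hsG).symm
  rw [h2, ← map_mul, ← map_mul] at h1
  exact (pi_eq_iff L (mul_mem hg hsG) (mul_mem hsG hg)).1 h1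

/-- **T5 for lifts** -/
theorem T5h [Finite G] (K0 : Kit N0 A E z s x r ψ) (L : Lin Gh π)
    (LK : LKit Gh π N0 A E z s x r Nh Eh zh sh xh rh) {a b : V ≃ₗ[K] V} (ha : a ∈ Gh) (hb : b ∈ Gh)
    (han : ∀ n ∈ Nh, a * n = n * a) (hbn : ∀ n ∈ Nh, b * n = n * b) (hab : a * b = b * a) (ha4 : a ^ 4 = 1)
    (hb2 : b ^ 2 = 1)
    (h : ∀ (i j : ℕ) (k : ℤ) (c : K), (∀ v, (a ^ i * b ^ j) v = c • (sh ^ k) v) → 4 ∣ i ∧ 2 ∣ j) : False := by
  have hsG : sh ∈ Gh := Nh_le LK LK.sN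
  have cen : ∀ g : V ≃ₗ[K] V, ∀ hg : g ∈ Gh, (∀ n ∈ Nh, g * n = n * g) → ∀ n ∈ N0, π ⟨g, hg⟩ * n = n * π ⟨g, hg⟩ := by
    intro g hg hgn n hn
    obtain ⟨m, hm, hmG, rfl⟩ := exists_lift L LK hn
    rw [← map_mul, ← map_mul]
    exact congrArg π (Subtype.ext (hgn m hm))
  refine K0.T5 (a := π ⟨a, ha⟩) (b := π ⟨b, hb⟩) (cen a ha han) (cen b hb hbn) ?_ ?_ ?_ ?_
  · rw [← map_mul, ← map_mul]
    exact congrArg π (Subtype.ext hab)
  · rw [← map_pow, ← map_one π]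
    exact congrArg π (Subtype.ext ha4)
  · rw [← map_pow, ← map_one π]
    exact congrArg π (Subtype.ext hb2)
  · rintro i j ⟨k, hk⟩
    have h2 : s = π ⟨sh, hsG⟩ := (LK.pi_s hsG).symm
    have hk' : s ^ k = π ⟨a, ha⟩ ^ i * π ⟨b, hb⟩ ^ j := hk
    rw [h2, ← map_zpow, ← map_pow, ← map_pow, ← map_mul] at hk'
    obtain ⟨c, hc⟩ := (pi_eq_iff L (mul_mem (pow_mem ha i) (pow_mem hb j)) (zpow_mem hsG k)).1 hk'.symm
    exact h i j k c hc

end lifts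

section symp

variable {G : Type*} [Group G] {K V : Type*} [Field K] [AddCommGroup V] [Module K V]
variable {Φ : Frm K V} {π : ↥Φ.Iso →* G}
variable {N0 A E : Subgroup G} {z s x r : G} {ψ : ↥A →* Equiv.Perm (Fin 6)}
variable {Nh Eh : Subgroup (V ≃ₗ[K] V)} {zh sh xh rh : V ≃ₗ[K] V}

/-- scalars in `Sp(V)` are `±1` -/
theorem sc_sq (hΦ : IsSp Φ) {c : K} {g h : V ≃ₗ[K] V} (hg : g ∈ Φ.Iso) (hh : h ∈ Φ.Iso) (hc : ∀ v, g v = c • h v)
    [Nontrivial V] : c = 1 ∨ c = -1 := by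
  obtain ⟨v, hv⟩ := exists_ne (0 : V)
  obtain ⟨w, hw⟩ : ∃ w, Φ.B v w ≠ 0 := by
    by_contra hcon
    push Not at hcon
    exact hv (hΦ.nd v hcon)
  have h1 := hg.1 v w
  rw [hc, hc, Φ.smul_left, Φ.smul_right, hΦ.s, hh.1] at h1
  have h2 : (c * c - 1) * Φ.B v w = 0 := by linear_combination h1
  have h3 : c * c = 1 := sub_eq_zero.1 ((mul_eq_zero.1 h2).resolve_right hw)
  exact mul_self_eq_one_iff.1 h3

theorem nontriv (LK : LKit Φ.Iso π N0 A E z s x r Nh Eh zh sh xh rh) : Nontrivial V := by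
  by_contra h
  rw [not_nontrivial_iff_subsingleton] at h
  exact LK.z_ne ⟨1, fun v => Subsingleton.elim _ _⟩

/-- **the square of `sh`** -/
theorem s_sq' (hΦ : IsSp Φ) (LK : LKit Φ.Iso π N0 A E z s x r Nh Eh zh sh xh rh) :
    (∀ v, sh (sh v) = zh v) ∨ (∀ v, sh (sh v) = - zh v) := by
  have := nontriv LK
  obtain ⟨c, -, hc⟩ := LK.s_sq
  have hsG : sh ∈ Φ.Iso := Nh_le LK LK.sN
  have hzG : zh ∈ Φ.Iso := Nh_le LK LK.zN
  rcases sc_sq hΦ (mul_mem hsG hsG) hzG hc with h | h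
  · left
    intro v
    have := hc v
    rw [h, one_smul] at this
    exact this
  · right
    intro v
    have := hc v
    rw [h, neg_one_smul] at this
    exact this

/-- the involution `ζ = - sh²` : its fixed space is `{sh² = -1}` -/
theorem exists_zeta (h2 : (2 : K) ≠ 0) (hΦ : IsSp Φ) (LK : LKit Φ.Iso π N0 A E z s x r Nh Eh zh sh xh rh) :
    ∃ ζ : V ≃ₗ[K] V, ζ ∈ Φ.Iso ∧ ζ * ζ = 1 ∧ (∀ v, sh (sh v) = - ζ v) ∧ ((∀ v, ζ v = zh v) ∨ (∀ v, ζ v = - zh v)) ∧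
      (∃ v, v ≠ 0 ∧ ζ v = v) ∧ (∃ v, v ≠ 0 ∧ ζ v = -v) := by
  have hsG : sh ∈ Φ.Iso := Nh_le LK LK.sN
  have hzG : zh ∈ Φ.Iso := Nh_le LK LK.zN
  let m1 : V ≃ₗ[K] V := LinearEquiv.neg K
  have hm1 : ∀ v, m1 v = -v := fun v => rfl
  have hm1G : m1 ∈ Φ.Iso := by
    refine ⟨fun v w => ?_, fun v => by rw [hΦ.q, hΦ.q]⟩
    rw [hm1, hm1, ← neg_one_smul K v, ← neg_one_smul K w, Φ.smul_left, Φ.smul_right, hΦ.s]
    ring
  let ζ : V ≃ₗ[K] V := m1 * (sh * sh)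
  have hζ : ∀ v, ζ v = - sh (sh v) := fun v => rfl
  have hzz : ∀ v, zh (zh v) = v := z_z LK.z_sq
  have h4 : (∀ v, ζ v = zh v) ∨ (∀ v, ζ v = - zh v) := by
    rcases s_sq' hΦ LK with h | h
    · right
      intro v
      rw [hζ, h]
    · left
      intro v
      rw [hζ, h, neg_neg]
  have h5 : ζ * ζ = 1 := by
    ext v
    change ζ (ζ v) = v
    rcases h4 with h | h
    · rw [h, h, hzz]
    · rw [h, h, map_neg, neg_neg, hzz]
  refine ⟨ζ, mul_mem hm1G (mul_mem hsG hsG), h5, fun v => ?_, h4, ?_, ?_⟩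
  · rw [hζ, neg_neg]
  · by_contra hcon
    push Not at hcon
    apply LK.z_ne
    have h6 : ∀ v, ζ v = -v := by
      intro v
      by_contra hv
      refine hcon (v + ζ v) (fun h => hv ?_) ?_
      · rw [eq_neg_iff_add_eq_zero, add_comm]; exact h
      · rw [map_add, z_z h5, add_comm]
    rcases h4 with h | h
    · exact ⟨-1, fun v => by rw [← h, h6, neg_one_smul]⟩
    · exact ⟨1, fun v => by rw [one_smul, ← neg_inj, ← h, h6]⟩
  · by_contra hcon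
    push Not at hcon
    apply LK.z_ne
    have h6 : ∀ v, ζ v = v := by
      intro v
      by_contra hv
      refine hcon (v - ζ v) (fun h => hv (sub_eq_zero.1 h).symm) ?_
      rw [map_sub, z_z h5, neg_sub]
    rcases h4 with h | h
    · exact ⟨1, fun v => by rw [← h, h6, one_smul]⟩
    · exact ⟨-1, fun v => by rw [neg_one_smul, ← neg_inj, ← h, h6, neg_neg]⟩

end symp

end Cfsg.Agent.H105.C3
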