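import Cfsg.Agent.H105.C3.PspOne

/-!
# S1920, case B, the symplectic row: second step (helper105)

`ζ = - sh²`, `V_c = {ζ = 1} = {sh² = -1}`, `V_r = {ζ = -1} = {sh² = 1}`.
* `CN_of` : isometries of `V_c`, extended by `1`;
* `s_comm'` : `sh` commutes with `Nh`;
* `no_t` : there is no isometry `t` of `V_c` with `t sh = - sh t`, `t n = ± n t`, commuting with `Eh`;
* `no_ab` : there are no `a`, `b` (from T5).
-/

set_option autoImplicit false
set_option linter.unusedSectionVars false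
set_option linter.unusedVariables false

namespace Cfsg.Agent.H105.C3

open Subgroup Cfsg.Agent.H415.C3 Cfsg.Agent.H847.Bs

variable {G : Type*} [Group G] {K V : Type*} [Field K] [AddCommGroup V] [Module K V]
variable {Φ : Frm K V} {π : ↥Φ.Iso →* G}
variable {N0 A E : Subgroup G} {z s x r : G} {ψ : ↥A →* Equiv.Perm (Fin 6)}
variable {Nh Eh : Subgroup (V ≃ₗ[K] V)} {zh sh xh rh ζ : V ≃ₗ[K] V}

/-- the data of `ζ` -/
structure Zt (Φ : Frm K V) (zh sh ζ : V ≃ₗ[K] V) : Prop where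
  mem : ζ ∈ Φ.Iso
  sq : ζ * ζ = 1
  s_sq : ∀ v, sh (sh v) = - ζ v
  eq : (∀ v, ζ v = zh v) ∨ (∀ v, ζ v = - zh v)
  pos : ∃ v, v ≠ 0 ∧ ζ v = v
  neg : ∃ v, v ≠ 0 ∧ ζ v = -v

theorem exists_Zt (h2 : (2 : K) ≠ 0) (hΦ : IsSp Φ) (LK : LKit Φ.Iso π N0 A E z s x r Nh Eh zh sh xh rh) :
    ∃ ζ, Zt Φ zh sh ζ := by
  obtain ⟨ζ, h1, h3, h4, h5, h6, h7⟩ := exists_zeta h2 hΦ LK
  exact ⟨ζ, h1, h3, h4, h5, h6, h7⟩

namespace Zt

theorem comm (Z : Zt Φ zh sh ζ) {g : V ≃ₗ[K] V} (h : ∀ v, g (zh v) = zh (g v)) (v : V) : g (ζ v) = ζ (g v) := by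
  rcases Z.eq with h1 | h1
  · rw [h1, h1, h]
  · rw [h1, h1, map_neg, h]

theorem zh_eq (Z : Zt Φ zh sh ζ) : (∀ v, zh v = ζ v) ∨ (∀ v, zh v = - ζ v) := by
  rcases Z.eq with h1 | h1
  · exact Or.inl fun v => (h1 v).symm
  · exact Or.inr fun v => by rw [h1, neg_neg]

end Zt

variable (LK : LKit Φ.Iso π N0 A E z s x r Nh Eh zh sh xh rh) (Z : Zt Φ zh sh ζ)

include LK in
theorem n_zh {n : V ≃ₗ[K] V} (hn : n ∈ Nh) (v : V) : n (zh v) = zh (n v) :=
  (comm_app (LK.z_comm n hn) v).symm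

include LK Z in
theorem n_ζ {n : V ≃ₗ[K] V} (hn : n ∈ Nh) (v : V) : n (ζ v) = ζ (n v) := Z.comm (n_zh LK hn) v

include LK Z in
theorem e_ζ {e : V ≃ₗ[K] V} (he : e ∈ Eh) (v : V) : e (ζ v) = ζ (e v) :=
  Z.comm (fun v => comm_app (LK.Eh_comm e he zh LK.zN) v) v

include LK Z in
/-- isometries of `V_c`, extended by `1` -/
theorem CN_of (h2 : (2 : K) ≠ 0) {a : V ≃ₗ[K] V} (haζ : ∀ v, a (ζ v) = ζ (a v)) (har : ∀ v, ζ v = -v → a v = v)
    (h : ∀ n ∈ Nh, (∀ v, ζ v = v → a (n v) = n (a v)) ∨ (∀ v, ζ v = v → a (n v) = - n (a v))) : CN Nh zh a := by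
  intro n hn
  have hr : ∀ v, ζ v = -v → a (n v) = n (a v) := by
    intro v hv
    rw [har v hv, har]
    rw [← n_ζ LK Z hn, hv, map_neg]
  have ext' : ∀ f g : V →ₗ[K] V, (∀ v, ζ v = v → f v = g v) → (∀ v, ζ v = -v → f v = g v) → ∀ v, f v = g v := by
    intro f g h1 h3 v
    have hp : ζ (v + ζ v) = v + ζ v := by rw [map_add, z_z Z.sq, add_comm]
    have hm : ζ (v - ζ v) = -(v - ζ v) := by rw [map_sub, z_z Z.sq, neg_sub]
    have e : v = (2 : K)⁻¹ • ((v + ζ v) + (v - ζ v)) := by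
      rw [show (v + ζ v) + (v - ζ v) = v + v by abel, half_add h2]
    generalize v + ζ v = a' at hp e
    generalize v - ζ v = b' at hm e
    rw [e, map_smul, map_smul, map_add, map_add, h1 _ hp, h3 _ hm]
  rcases h n hn with h1 | h1
  · refine ⟨1, Or.inl fun v => ?_⟩
    rw [one_smul]
    exact ext' ((a : V →ₗ[K] V) ∘ₗ n) ((n : V →ₗ[K] V) ∘ₗ a) h1 hr v
  · have key : ∀ v, a (n v) = - ζ (n (a v)) := by
      intro v
      refine ext' ((a : V →ₗ[K] V) ∘ₗ n) (-((ζ : V →ₗ[K] V) ∘ₗ (n : V →ₗ[K] V) ∘ₗ a)) (fun v hv => ?_) (fun v hv => ?_) v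
      · change a (n v) = - ζ (n (a v))
        rw [h1 v hv, ← n_ζ LK Z hn, ← haζ, hv]
      · change a (n v) = - ζ (n (a v))
        rw [hr v hv, ← n_ζ LK Z hn, ← haζ, hv, map_neg, map_neg, neg_neg]
    rcases Z.eq with h3 | h3
    · refine ⟨-1, Or.inr fun v => ?_⟩
      rw [key, h3, neg_one_smul]
    · refine ⟨1, Or.inr fun v => ?_⟩
      rw [key, h3, one_smul, neg_neg]

include Z in
theorem sh_ne_zero_of_neg : ∃ v, v ≠ 0 ∧ ζ v = -v ∧ sh v ≠ 0 := by
  obtain ⟨v, hv, hv'⟩ := Z.neg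
  exact ⟨v, hv, hv', fun h => hv (sh.map_eq_zero_iff.1 h)⟩

variable (K0 : Kit N0 A E z s x r ψ) (L : Lin Φ.Iso π)

include LK Z in
theorem s_ζ (v : V) : sh (ζ v) = ζ (sh v) := n_ζ LK Z LK.sN v

include LK Z K0 L in
/-- T1 on `V_c` -/
theorem T1c (h2 : (2 : K) ≠ 0) {a : V ≃ₗ[K] V} (ha : a ∈ Φ.Iso) (haζ : ∀ v, a (ζ v) = ζ (a v))
    (har : ∀ v, ζ v = -v → a v = v)
    (h : ∀ n ∈ Nh, (∀ v, ζ v = v → a (n v) = n (a v)) ∨ (∀ v, ζ v = v → a (n v) = - n (a v)))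
    (hE : ∀ e ∈ Eh, ∀ v, ζ v = v → a (e v) = e (a v)) : ∀ v, ζ v = v → a (sh v) = sh (a v) := by
  have hE' : ∀ e ∈ Eh, ∀ v, a (e v) = e (a v) := by
    intro e he v
    have : a * e = e * a := by
      refine ext_pm h2 Z.sq (hE e he) fun v hv => ?_
      change a (e v) = e (a v)
      rw [har v hv, har]
      rw [← e_ζ LK Z he, hv, map_neg]
    exact comm_app this v
  obtain ⟨c, hc⟩ := T1h K0 L LK ha (CN_of LK Z h2 haζ har h) hE'
  obtain ⟨w, hw, hwζ, hsw⟩ := sh_ne_zero_of_neg Z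
  have h3 := hc w
  rw [har w hwζ, har (sh w) (by rw [← s_ζ LK Z, hwζ, map_neg])] at h3
  have hc1 : c = 1 := by
    have h4 : (c - 1) • sh w = 0 := by rw [sub_smul, one_smul, ← h3, sub_self]
    exact sub_eq_zero.1 ((smul_eq_zero.1 h4).resolve_right hsw)
  intro v _
  rw [hc, hc1, one_smul]

include LK Z K0 L in
/-- **`sh` commutes with `Nh`** -/
theorem s_comm' (h2 : (2 : K) ≠ 0) (hΦ : IsSp Φ) {n : V ≃ₗ[K] V} (hn : n ∈ Nh) (v : V) : n (sh v) = sh (n v) := by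
  rcases LK.s_comm n hn with h | h
  · exact h v
  · exfalso
    have hnG : n ∈ Φ.Iso := Nh_le LK hn
    have hnζ : n * ζ = ζ * n := by
      ext v
      exact n_ζ LK Z hn v
    let g : V ≃ₗ[K] V := gl h2 Z.sq (g := n) (h := 1) hnζ (by rw [one_mul, mul_one])
    have hgp : ∀ v, ζ v = v → g v = n v := fun v hv => gl_pos h2 Z.sq _ _ hv
    have hgn : ∀ v, ζ v = -v → g v = v := fun v hv => gl_neg h2 Z.sq _ _ hv
    have hgG : g ∈ Φ.Iso := gl_mem h2 Z.sq _ _ hΦ Z.mem hnG (one_mem _)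
    have hgζ : ∀ v, g (ζ v) = ζ (g v) := by
      intro v
      have : g * ζ = ζ * g := by
        refine ext_pm h2 Z.sq (fun v hv => ?_) fun v hv => ?_
        · change g (ζ v) = ζ (g v)
          rw [hv, hgp v hv, ← n_ζ LK Z hn, hv]
        · change g (ζ v) = ζ (g v)
          rw [hv, map_neg, hgn v hv, hv]
      exact comm_app this v
    obtain ⟨v, hv, hvζ⟩ := Z.pos
    have h3 := T1c LK Z K0 L h2 hgG hgζ hgn (fun m hm => ?_) (fun e he v hv => ?_) v hvζ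
    · rw [hgp v hvζ, hgp (sh v) (by rw [← s_ζ LK Z, hvζ])] at h3
      have h5 : n (sh v) = - sh (n v) := h v
      have h4 : sh (n v) + sh (n v) = 0 := by
        nth_rw 1 [← h3]
        rw [h5, neg_add_cancel]
      rw [← two_smul K, smul_eq_zero] at h4
      have h6 := h4.resolve_left h2
      exact hv (n.map_eq_zero_iff.1 (sh.map_eq_zero_iff.1 h6))
    · -- commutators
      have hmζ : ∀ v, ζ v = v → ζ (m v) = m v := fun v hv => by rw [← n_ζ LK Z hm, hv]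
      obtain ⟨c, hc, h3⟩ := LK.comm n hn m hm
      have key : ∃ d : K, (d = 1 ∨ d = -1) ∧ ∀ v, ζ v = v → n (m v) = d • m (n v) := by
        rcases h3 with h3 | h3
        · exact ⟨c, hc, fun v _ => h3 v⟩
        · rcases Z.zh_eq with h4 | h4
          · refine ⟨c, hc, fun v hv => ?_⟩
            have h5 : n (m v) = c • zh (m (n v)) := h3 v
            rw [h5, h4, ← n_ζ LK Z hm, ← n_ζ LK Z hn, hv]
          · refine ⟨-c, by rcases hc with rfl | rfl <;> simp, fun v hv => ?_⟩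
            have h5 : n (m v) = c • zh (m (n v)) := h3 v
            rw [h5, h4, ← n_ζ LK Z hm, ← n_ζ LK Z hn, hv, smul_neg, neg_smul]
      obtain ⟨d, hd, h5⟩ := key
      rcases hd with rfl | rfl
      · left
        intro v hv
        rw [hgp _ (hmζ v hv), hgp v hv, h5 v hv, one_smul]
      · right
        intro v hv
        rw [hgp _ (hmζ v hv), hgp v hv, h5 v hv, neg_one_smul]
    · rw [hgp v hv, hgp (e v) (by rw [← e_ζ LK Z he, hv])]
      exact (comm_app (LK.Eh_comm e he n hn) v).symm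

include LK Z K0 L in
/-- **there is no `t`** -/
theorem no_t (h2 : (2 : K) ≠ 0) {t : V ≃ₗ[K] V} (ht : t ∈ Φ.Iso) (htζ : ∀ v, t (ζ v) = ζ (t v))
    (htr : ∀ v, ζ v = -v → t v = v)
    (h : ∀ n ∈ Nh, (∀ v, ζ v = v → t (n v) = n (t v)) ∨ (∀ v, ζ v = v → t (n v) = - n (t v)))
    (hE : ∀ e ∈ Eh, ∀ v, ζ v = v → t (e v) = e (t v)) (hs : ∀ v, ζ v = v → t (sh v) = - sh (t v)) : False := by
  obtain ⟨v, hv, hvζ⟩ := Z.pos
  have h3 := T1c LK Z K0 L h2 ht htζ htr h hE v hvζ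
  rw [hs v hvζ] at h3
  have h4 : sh (t v) + sh (t v) = 0 := by
    nth_rw 1 [← h3]
    rw [neg_add_cancel]
  rw [← two_smul K, smul_eq_zero] at h4
  exact hv (t.map_eq_zero_iff.1 (sh.map_eq_zero_iff.1 (h4.resolve_left h2)))

include LK Z in
/-- even powers of `sh` on `V_c` -/
theorem s_pow_even (l : ℤ) {v : V} (hv : ζ v = v) : (sh ^ (2 * l)) v = (((-1 : Kˣ) ^ l : Kˣ) : K) • v := by
  have hsq : ∀ u, ζ u = u → (sh ^ (2 : ℤ)) u = -u := by
    intro u hu
    have : (sh ^ (2 : ℤ)) = sh * sh := by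
      rw [show (2 : ℤ) = 1 + 1 by norm_num, zpow_add, zpow_one]
    rw [this]
    change sh (sh u) = -u
    rw [Z.s_sq, hu]
  induction l using Int.induction_on with
  | zero => simp
  | succ l ih =>
    rw [mul_add, mul_one, add_comm, zpow_add]
    change (sh ^ (2 : ℤ)) ((sh ^ (2 * (l : ℤ))) v) = _
    rw [ih, map_smul, hsq v hv, add_comm, zpow_add]
    simp
  | pred l ih =>
    have h5 : (sh ^ (2 : ℤ)) ((sh ^ (2 * (-(l : ℤ) - 1))) v) = (sh ^ (2 * (-(l : ℤ)))) v := by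
      have : sh ^ (2 * (-(l : ℤ))) = sh ^ (2 : ℤ) * sh ^ (2 * (-(l : ℤ) - 1)) := by
        rw [← zpow_add]; congr 1; ring
      rw [this]
      rfl
    have h6 : ζ ((sh ^ (2 * (-(l : ℤ) - 1))) v) = (sh ^ (2 * (-(l : ℤ) - 1))) v := by
      have : Commute (sh ^ (2 * (-(l : ℤ) - 1))) ζ := by
        refine Commute.zpow_left ?_ _
        change sh * ζ = ζ * sh
        ext v
        exact s_ζ LK Z v
      have h3 : (sh ^ (2 * (-(l : ℤ) - 1))) (ζ v) = ζ ((sh ^ (2 * (-(l : ℤ) - 1))) v) := comm_app this.eq v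
      rw [← h3, hv]
    rw [hsq _ h6, ih] at h5
    rw [← neg_eq_iff_eq_neg.2 h5.symm, zpow_sub, ← neg_smul]
    simp

include LK Z K0 L in
/-- **there are no `a`, `b`** : `a = sh` on `W₁`, `b = -1` on `W₂`, both trivial on `W₃` -/
theorem no_ab [Finite G] (h2 : (2 : K) ≠ 0) (hΦ : IsSp Φ) {a b : V ≃ₗ[K] V} (ha : a ∈ Φ.Iso) (hb : b ∈ Φ.Iso)
    (han : ∀ n ∈ Nh, ∀ v, a (n v) = n (a v)) (hbn : ∀ n ∈ Nh, ∀ v, b (n v) = n (b v))
    (hab : ∀ v, a (b v) = b (a v)) {w₁ w₂ w₃ : V} (h1 : w₁ ≠ 0) (h1' : w₂ ≠ 0) (h1'' : Φ.B w₃ (sh w₃) ≠ 0)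
    (hz1 : ζ w₁ = w₁) (hz2 : ζ w₂ = w₂) (hz3 : ζ w₃ = w₃)
    (ha1 : a w₁ = sh w₁) (hb1 : b w₁ = w₁) (ha2 : a w₂ = w₂) (hb2 : b w₂ = -w₂) (ha3 : a w₃ = w₃) (hb3 : b w₃ = w₃)
    (ha4 : ∀ v, a (a (a (a v))) = v) (hb22 : ∀ v, b (b v) = v) (hash : ∀ v, a (sh v) = sh (a v)) : False := by
  have ha4' : a ^ 4 = 1 := by
    ext v
    exact ha4 v
  have hb2' : b ^ 2 = 1 := by
    ext v
    exact hb22 v
  have hw3 : w₃ ≠ 0 := by
    rintro rfl
    exact h1'' (hΦ.alt _ ▸ (by rw [map_zero]))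
  refine T5h K0 L LK ha hb (fun n hn => LinearEquiv.ext (han n hn)) (fun n hn => LinearEquiv.ext (hbn n hn))
    (LinearEquiv.ext hab) ha4' hb2' fun i j k c hc => ?_
  have hpow : ∀ (g : V ≃ₗ[K] V) (w : V), g w = w → ∀ i : ℕ, (g ^ i) w = w := by
    intro g w hg i
    induction i with
    | zero => rfl
    | succ i ih =>
      rw [pow_succ]
      change (g ^ i) (g w) = w
      rw [hg, ih]
  have e3 : w₃ = c • (sh ^ k) w₃ := by
    rw [← hc w₃]
    change w₃ = (a ^ i) ((b ^ j) w₃)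
    rw [hpow b w₃ hb3, hpow a w₃ ha3]
  obtain ⟨l, hl | hl⟩ := Int.even_or_odd' k
  · -- even
    subst hl
    rw [s_pow_even LK Z l hz3, smul_smul] at e3
    have hδ : c * (((-1 : Kˣ) ^ l : Kˣ) : K) = 1 := by
      have h4 : (c * (((-1 : Kˣ) ^ l : Kˣ) : K) - 1) • w₃ = 0 := by rw [sub_smul, one_smul, ← e3, sub_self]
      exact sub_eq_zero.1 ((smul_eq_zero.1 h4).resolve_right hw3)
    have key : ∀ w, ζ w = w → (a ^ i) ((b ^ j) w) = w := by
      intro w hw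
      have h4 := hc w
      rw [s_pow_even LK Z l hw, smul_smul, hδ, one_smul] at h4
      exact h4
    have k1 := key w₁ hz1
    have k2 := key w₂ hz2
    rw [hpow b w₁ hb1] at k1
    have hcomm : (a ^ i) ((b ^ j) w₂) = (b ^ j) ((a ^ i) w₂) := by
      have : Commute (a ^ i) (b ^ j) := (show Commute a b from LinearEquiv.ext hab).pow_pow i j
      exact comm_app this.eq w₂
    rw [hcomm, hpow a w₂ ha2] at k2
    constructor
    · have a2 : (a ^ 2) w₁ = - w₁ := by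
        change a (a w₁) = - w₁
        rw [ha1, hash, ha1, Z.s_sq, hz1]
      have a1 : ∀ m : ℕ, m < 4 → (a ^ m) w₁ = w₁ → m = 0 := by
        intro m hm h
        have hne : ∀ u : V, u ≠ 0 → -u ≠ u := by
          intro u hu h
          have h4 : u + u = 0 := by nth_rw 1 [← h]; rw [neg_add_cancel]
          rw [← two_smul K, smul_eq_zero] at h4
          exact hu (h4.resolve_left h2)
        interval_cases m
        · rfl
        · exfalso
          have h4 : a w₁ = w₁ := h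
          have h5 : (a ^ 2) w₁ = w₁ := hpow a w₁ h4 2
          rw [a2] at h5
          exact hne _ h1 h5
        · exfalso
          rw [a2] at h
          exact hne _ h1 h
        · exfalso
          have h4 : (a ^ 3) w₁ = a ((a ^ 2) w₁) := rfl
          rw [h4, a2, map_neg] at h
          have h5 : a w₁ = - w₁ := by rw [← h, neg_neg, h]
          have h6 : (a ^ 2) w₁ = a (a w₁) := rfl
          rw [a2, h5, map_neg, h5, neg_neg] at h6
          exact hne _ h1 h6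
      have h3 : (a ^ (i % 4)) w₁ = w₁ := by
        have h4 : a ^ i = a ^ (i % 4) := by
          conv_lhs => rw [← Nat.div_add_mod i 4]
          rw [pow_add, pow_mul, ha4', one_pow, one_mul]
        rw [← h4]
        exact k1
      exact Nat.dvd_of_mod_eq_zero (a1 _ (Nat.mod_lt _ (by norm_num)) h3)
    · rcases Nat.even_or_odd j with hj | hj
      · exact hj.two_dvd
      · exfalso
        obtain ⟨m, rfl⟩ := hj
        rw [pow_add, pow_mul, hb2', one_pow, one_mul, pow_one, hb2] at k2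
        have h4 : w₂ + w₂ = 0 := by nth_rw 1 [← k2]; rw [neg_add_cancel]
        rw [← two_smul K, smul_eq_zero] at h4
        exact h1' (h4.resolve_left h2)
  · -- odd
    exfalso
    subst hl
    have h4 : (sh ^ (2 * l + 1)) w₃ = (sh ^ (2 * l)) (sh w₃) := by
      rw [zpow_add, zpow_one]; rfl
    rw [h4, s_pow_even LK Z l (by rw [← s_ζ LK Z, hz3]), smul_smul] at e3
    apply h1''
    nth_rw 1 [e3]
    rw [Φ.smul_left, hΦ.alt, mul_zero]

end Cfsg.Agent.H105.C3
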