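import Cfsg.Agent.H105.C3.Str
import Cfsg.Agent.H105.C3.PspTwo

/-!
# S1920, case B, the symplectic row: restriction to `V_c` and extension (helper105)

* `Wc ζ` : the fixed space of `ζ`; `res` : restriction of elements commuting with `ζ`; `ex` : extension by `1`;
* `psp_false` : there is no lifted kit in `Sp(V)`.
-/

set_option autoImplicit false
set_option linter.unusedSectionVars false
set_option linter.unusedVariables false

namespace Cfsg.Agent.H105.C3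

open Subgroup Cfsg.Agent.H415.C3 Cfsg.Agent.H847.Bs Cfsg.Agent.H527.C3

section transport

variable {K V : Type*} [Field K] [AddCommGroup V] [Module K V]

/-- the fixed space of `ζ` -/
def Wc (ζ : V ≃ₗ[K] V) : Submodule K V where
  carrier := {v | ζ v = v}
  add_mem' := by
    intro a b ha hb
    change ζ (a + b) = a + b
    rw [map_add, ha, hb]
  zero_mem' := map_zero ζ
  smul_mem' := by
    intro c a ha
    change ζ (c • a) = c • a
    rw [map_smul, ha]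

variable {ζ : V ≃ₗ[K] V}

theorem mem_Wc {v : V} : v ∈ Wc ζ ↔ ζ v = v := Iff.rfl

theorem cen_app (g : ↥(centralizer {ζ})) (v : V) : (g : V ≃ₗ[K] V) (ζ v) = ζ ((g : V ≃ₗ[K] V) v) :=
  comm_app (mem_centralizer_singleton_iff.1 g.2) v

theorem mem_cen' {g : V ≃ₗ[K] V} (h : ∀ v, g (ζ v) = ζ (g v)) : g ∈ centralizer {ζ} :=
  mem_centralizer_singleton_iff.2 (LinearEquiv.ext h)

/-- restriction to the fixed space of `ζ` -/
noncomputable def res0 (ζ : V ≃ₗ[K] V) : ↥(centralizer {ζ}) →* Module.End K (Wc ζ) where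
  toFun g := ((g : V ≃ₗ[K] V) : V →ₗ[K] V).restrict (p := Wc ζ) (q := Wc ζ) fun v hv => by
    change ζ ((g : V ≃ₗ[K] V) v) = (g : V ≃ₗ[K] V) v
    rw [← cen_app, mem_Wc.1 hv]
  map_one' := by
    ext v
    rfl
  map_mul' g g' := by
    ext v
    rfl

/-- restriction to the fixed space of `ζ` -/
noncomputable def res (ζ : V ≃ₗ[K] V) : ↥(centralizer {ζ}) →* (Module.End K (Wc ζ))ˣ := (res0 ζ).toHomUnits

theorem res_apply (g : ↥(centralizer {ζ})) (w : Wc ζ) : ((res ζ g • w : Wc ζ) : V) = (g : V ≃ₗ[K] V) w := rfl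

/-- projection to the fixed space -/
noncomputable def prj (hz : ζ * ζ = 1) : V →ₗ[K] Wc ζ where
  toFun v := ⟨(2 : K)⁻¹ • (v + ζ v), by
    change ζ ((2 : K)⁻¹ • (v + ζ v)) = (2 : K)⁻¹ • (v + ζ v)
    rw [map_smul, map_add, z_z hz, add_comm]⟩
  map_add' a b := by
    apply Subtype.ext
    change (2 : K)⁻¹ • (a + b + ζ (a + b)) = (2 : K)⁻¹ • (a + ζ a) + (2 : K)⁻¹ • (b + ζ b)
    rw [map_add]
    module
  map_smul' c a := by
    apply Subtype.ext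
    change (2 : K)⁻¹ • (c • a + ζ (c • a)) = c • ((2 : K)⁻¹ • (a + ζ a))
    rw [map_smul]
    module

theorem prj_apply (hz : ζ * ζ = 1) (v : V) : ((prj hz v : Wc ζ) : V) = (2 : K)⁻¹ • (v + ζ v) := rfl

theorem prj_pos (h2 : (2 : K) ≠ 0) (hz : ζ * ζ = 1) (w : Wc ζ) : prj hz (w : V) = w := by
  apply Subtype.ext
  rw [prj_apply, mem_Wc.1 w.2, half_add h2]

theorem prj_neg (hz : ζ * ζ = 1) {v : V} (hv : ζ v = -v) : prj hz v = 0 := by
  apply Subtype.ext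
  rw [prj_apply, hv, add_neg_cancel, smul_zero]
  rfl

/-- extension by `1` -/
noncomputable def ex0 (hz : ζ * ζ = 1) (f : Module.End K (Wc ζ)) : V →ₗ[K] V :=
  (Wc ζ).subtype ∘ₗ f ∘ₗ prj hz + (LinearMap.id - (Wc ζ).subtype ∘ₗ prj hz)

theorem ex0_apply (hz : ζ * ζ = 1) (f : Module.End K (Wc ζ)) (v : V) :
    ex0 hz f v = (f (prj hz v) : V) + (v - (prj hz v : V)) := rfl

theorem ex0_pos (h2 : (2 : K) ≠ 0) (hz : ζ * ζ = 1) (f : Module.End K (Wc ζ)) (w : Wc ζ) :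
    ex0 hz f (w : V) = f w := by
  rw [ex0_apply, prj_pos h2, sub_self, add_zero]

theorem ex0_neg (hz : ζ * ζ = 1) (f : Module.End K (Wc ζ)) {v : V} (hv : ζ v = -v) : ex0 hz f v = v := by
  rw [ex0_apply, prj_neg hz hv, map_zero]
  simp

theorem lin_ext (h2 : (2 : K) ≠ 0) (hz : ζ * ζ = 1) {f g : V →ₗ[K] V} (h1 : ∀ w : Wc ζ, f (w : V) = g (w : V))
    (h3 : ∀ v, ζ v = -v → f v = g v) (v : V) : f v = g v := by
  have hp : ζ (v + ζ v) = v + ζ v := by rw [map_add, z_z hz, add_comm]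
  have hm : ζ (v - ζ v) = -(v - ζ v) := by rw [map_sub, z_z hz, neg_sub]
  have e : v = (2 : K)⁻¹ • ((v + ζ v) + (v - ζ v)) := by
    rw [show (v + ζ v) + (v - ζ v) = v + v by abel, half_add h2]
  generalize v + ζ v = a' at hp e
  generalize v - ζ v = b' at hm e
  rw [e, map_smul, map_smul, map_add, map_add, h1 ⟨a', hp⟩, h3 _ hm]

theorem ex0_comp (h2 : (2 : K) ≠ 0) (hz : ζ * ζ = 1) (f g : Module.End K (Wc ζ)) (v : V) :
    ex0 hz f (ex0 hz g v) = ex0 hz (f * g) v := by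
  refine lin_ext h2 hz (f := ex0 hz f ∘ₗ ex0 hz g) (g := ex0 hz (f * g)) (fun w => ?_) (fun v hv => ?_) v
  · change ex0 hz f (ex0 hz g w) = _
    rw [ex0_pos h2, ex0_pos h2, ex0_pos h2]
    rfl
  · change ex0 hz f (ex0 hz g v) = _
    rw [ex0_neg hz g hv, ex0_neg hz f hv, ex0_neg hz _ hv]

theorem ex0_one (h2 : (2 : K) ≠ 0) (hz : ζ * ζ = 1) (v : V) : ex0 hz (1 : Module.End K (Wc ζ)) v = v := by
  refine lin_ext h2 hz (f := ex0 hz 1) (g := LinearMap.id) (fun w => ?_) (fun v hv => ?_) v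
  · rw [ex0_pos h2]; rfl
  · rw [ex0_neg hz _ hv]; rfl

/-- extension by `1` -/
noncomputable def ex (h2 : (2 : K) ≠ 0) (hz : ζ * ζ = 1) (f : (Module.End K (Wc ζ))ˣ) : V ≃ₗ[K] V :=
  LinearEquiv.ofLinearMap (ex0 hz f) (ex0 hz ((f⁻¹ : (Module.End K (Wc ζ))ˣ) : Module.End K (Wc ζ)))
    (by
      ext v
      change ex0 hz _ (ex0 hz _ v) = v
      rw [ex0_comp h2, Units.mul_inv, ex0_one h2])
    (by
      ext v
      change ex0 hz _ (ex0 hz _ v) = v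
      rw [ex0_comp h2, Units.inv_mul, ex0_one h2])

variable (h2 : (2 : K) ≠ 0) (hz : ζ * ζ = 1) (f : (Module.End K (Wc ζ))ˣ)

theorem ex_pos (w : Wc ζ) : ex h2 hz f (w : V) = ((f • w : Wc ζ) : V) := ex0_pos h2 hz f w

theorem ex_neg {v : V} (hv : ζ v = -v) : ex h2 hz f v = v := ex0_neg hz f hv

theorem ex_ζ (v : V) : ex h2 hz f (ζ v) = ζ (ex h2 hz f v) := by
  refine lin_ext h2 hz (f := (ex h2 hz f : V →ₗ[K] V) ∘ₗ (ζ : V →ₗ[K] V)) (g := (ζ : V →ₗ[K] V) ∘ₗ ex h2 hz f)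
    (fun w => ?_) (fun v hv => ?_) v
  · change ex h2 hz f (ζ w) = ζ (ex h2 hz f w)
    rw [mem_Wc.1 w.2, ex_pos h2, mem_Wc.1 (f • w).2]
  · change ex h2 hz f (ζ v) = ζ (ex h2 hz f v)
    rw [hv, map_neg, ex_neg h2 hz f hv, hv]

/-- `ζ ∈ Iso`: the two eigenspaces are orthogonal -/
theorem orth_pm {Φ : Frm K V} (hΦ : IsSp Φ) (h2 : (2 : K) ≠ 0) (hzΦ : ζ ∈ Φ.Iso) {a b : V} (ha : ζ a = a) (hb : ζ b = -b) :
    Φ.B a b = 0 ∧ Φ.B b a = 0 := by
  have h1 := hzΦ.1 a b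
  have h3 := hzΦ.1 b a
  have e1 : ∀ x y : V, Φ.B x (-y) = - Φ.B x y := by
    intro x y
    rw [← neg_one_smul K y, Φ.smul_right, hΦ.s, neg_one_mul]
  have e2 : ∀ x y : V, Φ.B (-x) y = - Φ.B x y := by
    intro x y
    rw [← neg_one_smul K x, Φ.smul_left, neg_one_mul]
  rw [ha, hb, e1] at h1
  rw [ha, hb, e2] at h3
  constructor
  · have h4 : (2 : K) * Φ.B a b = 0 := by linear_combination (-1 : K) * h1
    exact (mul_eq_zero.1 h4).resolve_left h2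
  · have h4 : (2 : K) * Φ.B b a = 0 := by linear_combination (-1 : K) * h3
    exact (mul_eq_zero.1 h4).resolve_left h2

theorem ex_mem {Φ : Frm K V} (hΦ : IsSp Φ) (hzΦ : ζ ∈ Φ.Iso)
    (hf : ∀ u w : Wc ζ, Φ.B ((f • u : Wc ζ) : V) ((f • w : Wc ζ) : V) = Φ.B (u : V) (w : V)) : ex h2 hz f ∈ Φ.Iso := by
  refine ⟨fun v w => ?_, fun v => by rw [hΦ.q, hΦ.q]⟩
  have hp : ∀ v : V, ζ (v + ζ v) = v + ζ v := fun v => by rw [map_add, z_z hz, add_comm]
  have hm : ∀ v : V, ζ (v - ζ v) = -(v - ζ v) := fun v => by rw [map_sub, z_z hz, neg_sub]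
  have e : ∀ v : V, v = (2 : K)⁻¹ • ((v + ζ v) + (v - ζ v)) := fun v => by
    rw [show (v + ζ v) + (v - ζ v) = v + v by abel, half_add h2]
  rw [e v, e w]
  have hpv := hp v
  have hpw := hp w
  have hmv := hm v
  have hmw := hm w
  generalize v + ζ v = a1 at hpv
  generalize v - ζ v = b1 at hmv
  generalize w + ζ w = a2 at hpw
  generalize w - ζ w = b2 at hmw
  have k1 : ex h2 hz f a1 = ((f • (⟨a1, hpv⟩ : Wc ζ) : Wc ζ) : V) := ex_pos h2 hz f ⟨a1, hpv⟩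
  have k2 : ex h2 hz f a2 = ((f • (⟨a2, hpw⟩ : Wc ζ) : Wc ζ) : V) := ex_pos h2 hz f ⟨a2, hpw⟩
  rw [map_smul, map_smul, map_add, map_add, ex_neg h2 hz f hmv, ex_neg h2 hz f hmw, k1, k2]
  rw [Φ.smul_left, Φ.smul_right, hΦ.s, Φ.smul_left, Φ.smul_right, hΦ.s]
  congr 2
  rw [Φ.add_left, Φ.add_right, Φ.add_right, Φ.add_left, Φ.add_right, Φ.add_right, hf,
    (orth_pm hΦ h2 hzΦ hpv hmw).1, (orth_pm hΦ h2 hzΦ hpw hmv).2,
    (orth_pm hΦ h2 hzΦ (mem_Wc.1 (f • (⟨a1, hpv⟩ : Wc ζ)).2) hmw).1,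
    (orth_pm hΦ h2 hzΦ (mem_Wc.1 (f • (⟨a2, hpw⟩ : Wc ζ)).2) hmv).2]

theorem perf_map {X Y : Type*} [Group X] [Group Y] {C H : Subgroup X} (hH : ⁅H, H⁆ = H) (hle : H ≤ C) (φ : ↥C →* Y) :
    ⁅(H.subgroupOf C).map φ, (H.subgroupOf C).map φ⁆ = (H.subgroupOf C).map φ := by
  have h1 : ⁅H.subgroupOf C, H.subgroupOf C⁆ = H.subgroupOf C := by
    apply Subgroup.map_injective C.subtype_injective
    rw [Subgroup.map_commutator, Subgroup.map_subgroupOf_eq_of_le hle, hH]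
  rw [← Subgroup.map_commutator, h1]

end transport

end Cfsg.Agent.H105.C3
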