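import Cfsg.Agent.H415.C3.KitOf
import Cfsg.Agent.H415.C3.Lift
import Cfsg.Agent.H105.C3.PspFour
import Cfsg.Agent.H527.Co3.Asm
import Cfsg.Prelude.Def_LieTypeChar

/-!
# S1920, case B: the row `PSp_2m(F)` (helper105)

`psp_odd` : `|F|` odd; `row_psp_of` : the row, from the characteristic 2 case.
-/

set_option autoImplicit false

open Subgroup Module

namespace Cfsg.Agent.H105.C3

open Cfsg.Agent.H415.C3 Cfsg.Agent.H847.Bs
open Cfsg.Agent.H13.Co3 (CB)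
open Cfsg.Agent.H548.BS (spFrm isSp)

/-- **`PSp_2m(F)`, `|F|` odd, has no configuration `CB`.** -/
theorem psp_odd {G : Type*} [Group G] [Finite G] {F : Type} [Field F] [Finite F] (h2 : (2 : F) ≠ 0) {m : ℕ}
    (e : G ≃* Cfsg.PSp m F) {P N0 : Subgroup G} {z s : G}
    {ψ : ↥(normalizer (P : Set G)) →* Equiv.Perm (Fin 6)} (C : CB P N0 z s ψ) : False := by
  obtain ⟨A, E, x, r, φ, Kt⟩ := exists_kit C
  obtain ⟨π, hL⟩ := lin_psp e
  have hVV : Finite ((Fin m ⊕ Fin m → F) ≃ₗ[F] (Fin m ⊕ Fin m → F)) :=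
    Finite.of_injective (fun f : (Fin m ⊕ Fin m → F) ≃ₗ[F] (Fin m ⊕ Fin m → F) =>
      (f : (Fin m ⊕ Fin m → F) → (Fin m ⊕ Fin m → F))) DFunLike.coe_injective
  obtain ⟨Nh, Eh, zh, sh, xh, rh, L⟩ := exists_lkit hL h2 Kt
  exact psp_false h2 (isSp m) Kt hL L

universe u

open Cfsg in
/-- **The row `IsPSp`**, from the characteristic 2 case (`H738/C3/Char2Rows.false_of_lieTwo`). -/
theorem row_psp_of (H : ∀ (G : Type u) [Group G] [Finite G] [IsSimpleGroup G] (P N0 : Subgroup G) (z s : G)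
    (ψ : ↥(normalizer (P : Set G)) →* Equiv.Perm (Fin 6)), CB P N0 z s ψ → IsLieTypeChar 2 G → False) :
    Cfsg.Agent.H527.Co3.Row.{u} @IsPSp := by
  intro G _ _ _ hG P N0 z s ψ C
  obtain ⟨F, hF, hFf, n, hn, hn2, ⟨e⟩⟩ := hG
  by_cases h2 : (2 : F) = 0
  · have hch : CharP F 2 := CharTwo.of_one_ne_zero_of_two_eq_zero one_ne_zero h2
    exact H G P N0 z s ψ C (Or.inr (Or.inl ⟨F, hF, hFf, hch, n, hn, hn2, ⟨e⟩⟩))
  · exact psp_odd h2 e C

end Cfsg.Agent.H105.C3
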