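import Cfsg.Agent.H527.C3.Twist

/-!
# S1920, classical groups: the structure lemma, alternating case (helper105)

On top of helper527's `Full` and `Two`. `h(u, v) = ω(u, J v)` is symmetric; isometries of `ω` which anticommute with `J` are
anti-isometries of `h`.
* `replace` : `Two` from `Same (n • w) v`;
* `perfect_comm` : a perfect subgroup of the centralizer commutes with `T R`;
* `str_alt` : the structure lemma.
-/

set_option autoImplicit false

open Subgroup

namespace Cfsg.Agent.H105.C3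

open Cfsg.Agent.H527.C3

variable {K W : Type*} [Field K] [AddCommGroup W] [Module K W]
variable {h : LinearMap.BilinForm K W} {NN : Subgroup (Module.End K W)ˣ} [Fintype ↥NN] {J : (Module.End K W)ˣ}
variable {A : Subgroup (Module.End K W)ˣ} {S : Finset W} {c : (Module.End K W)ˣ → K}

open scoped Classical in
/-- **replacement of `w` by `n w`** -/
theorem replace (F : Full h NN J A S c) {v w : W} (hv : v ∈ S) (hw : w ∈ S) (hne : v ≠ w)
    (hS : ∀ x ∈ S, x = v ∨ x = w) {n : (Module.End K W)ˣ} (hn : n ∈ NN) (hs : Dat.Same F.M (n • w) v) :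
    ∃ F' : Full h NN J A {v, n • w} c, F'.Two v (n • w) := by
  have hne' : v ≠ n • w := by
    intro h1
    have h3 : h (n⁻¹ • v) w = 0 := F.Y.orth v hv w hw hne n⁻¹ (inv_mem hn)
    rw [h1, inv_smul_smul, F.Y.one w hw] at h3
    exact one_ne_zero h3
  have Y : Dat.Sys h NN A {v, n • w} := by
    refine ⟨fun x hx => ?_, fun x hx => ?_, fun x hx y hy hxy m hm => ?_⟩
    · rcases Finset.mem_insert.1 hx with h1 | h1
      · rw [h1]; exact F.Y.eig _ hv
      · rw [Finset.mem_singleton.1 h1]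
        exact F.eig_smul (F.Y.eig w hw) hn
    · rcases Finset.mem_insert.1 hx with h1 | h1
      · rw [h1]; exact F.Y.one _ hv
      · rw [Finset.mem_singleton.1 h1, F.D.iso hn]
        exact F.Y.one w hw
    · rcases Finset.mem_insert.1 hx with h1 | h1
      · rcases Finset.mem_insert.1 hy with h2 | h2
        · exact absurd (h1.trans h2.symm) hxy
        · rw [Finset.mem_singleton.1 h2, h1]
          have h3 := F.D.iso (inv_mem hn) (m • v) (n • w)
          rw [inv_smul_smul, ← mul_smul] at h3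
          rw [← h3]
          exact F.Y.orth v hv w hw hne _ (mul_mem (inv_mem hn) hm)
      · rcases Finset.mem_insert.1 hy with h2 | h2
        · rw [Finset.mem_singleton.1 h1, h2, ← mul_smul]
          exact F.Y.orth w hw v hv (Ne.symm hne) _ (mul_mem hm hn)
        · exact absurd ((Finset.mem_singleton.1 h1).trans (Finset.mem_singleton.1 h2).symm) hxy
  have hTr : ∀ u, Dat.Tr h NN (fun _ => (1 : K)) (n • w) (n • w) u = Dat.Tr h NN (fun _ => (1 : K)) w w u := by
    intro u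
    rw [Dat.Tr_apply, Dat.Tr_apply]
    refine Fintype.sum_equiv (Equiv.mulRight (⟨n, hn⟩ : ↥NN)) _ _ fun m => ?_
    change (1 * h ((m : (Module.End K W)ˣ) • n • w) u) • ((m : (Module.End K W)ˣ) • n • w) =
      (1 * h (((m : (Module.End K W)ˣ) * n) • w) u) • (((m : (Module.End K W)ˣ) * n) • w)
    rw [one_mul, one_mul, mul_smul (m : (Module.End K W)ˣ) n w]
  have hSe : S = {v, w} := by
    ext x
    rw [Finset.mem_insert, Finset.mem_singleton]
    constructor
    · exact hS x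
    · rintro (rfl | rfl)
      · exact hv
      · exact hw
  have hexp : ∀ u : W, ∑ x ∈ ({v, n • w} : Finset W), Dat.Tr h NN (fun _ => (1 : K)) x x u = Dat.kap K F.M • u := by
    intro u
    have h1 := F.exp u
    have h2 : ∀ f : W → W, ∑ x ∈ S, f x = f v + f w := fun f => by
      rw [hSe]
      exact Finset.sum_pair hne
    rw [h2 fun x => Dat.Tr h NN (fun _ => (1 : K)) x x u] at h1
    rw [Finset.sum_pair hne', hTr]
    exact h1
  refine ⟨⟨F.D, F.M, Y, hexp, F.kap, F.sg, F.cJ, F.cA⟩, ⟨?_, ?_, hne', F.same_symm hs, ?_⟩⟩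
  · exact Finset.mem_insert_self _ _
  · exact Finset.mem_insert_of_mem (Finset.mem_singleton_self _)
  · intro x hx
    rcases Finset.mem_insert.1 hx with h1 | h1
    · exact Or.inl h1
    · exact Or.inr (Finset.mem_singleton.1 h1)

/-- **a perfect subgroup of the centralizer commutes with `T R`** -/
theorem perfect_comm (F : Full h NN J A S c) {v₁ v₂ : W} (X : F.Two v₁ v₂) {EE : Subgroup (Module.End K W)ˣ}
    (hE : ⁅EE, EE⁆ = EE) (hc : EE ≤ cen h NN) {g : (Module.End K W)ˣ} (hg : g ∈ EE) :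
    (F.Tu * F.Ru X) * g = g * (F.Tu * F.Ru X) := by
  set τ := F.Tu * F.Ru X with hτ
  have hJ : ∀ g ∈ EE, g * J = J * g := fun g hg => ((mem_cen.1 (hc hg)).2 J F.D.J_mem).symm
  -- `D g = g τ g⁻¹ τ⁻¹ ∈ K[J]`
  have hD : ∀ g ∈ EE, ∃ x y : K, ((g * τ * g⁻¹ * τ⁻¹ : (Module.End K W)ˣ) : Module.End K W) =
      x • (1 : Module.End K W) + y • (J : Module.End K W) := by
    intro g hg
    obtain ⟨x, y, hxy⟩ := F.twist X (hc hg)
    refine ⟨x, y, LinearMap.ext fun u => ?_⟩
    have h1 := hxy (g⁻¹ • τ⁻¹ • u)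
    have h2 : ∀ w : W, F.T (F.R v₁ v₂ w) = τ • w := fun w => rfl
    rw [h2, h2, smul_inv_smul g, smul_inv_smul τ] at h1
    change (g * τ * g⁻¹ * τ⁻¹) • u = x • u + y • J • u
    rw [← h1]
    simp only [mul_smul]
  -- these commute with `EE`
  have hDc : ∀ g ∈ EE, ∀ g' ∈ EE, (g * τ * g⁻¹ * τ⁻¹) * g' = g' * (g * τ * g⁻¹ * τ⁻¹) := by
    intro g hg g' hg'
    obtain ⟨x, y, hxy⟩ := hD g hg
    refine Units.ext ?_
    have h1 : (J : Module.End K W) * (g' : Module.End K W) = (g' : Module.End K W) * (J : Module.End K W) :=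
      congrArg Units.val (hJ g' hg').symm
    rw [Units.val_mul _ g', Units.val_mul g', hxy, add_mul, mul_add, smul_mul_assoc, mul_smul_comm, one_mul, mul_one,
      smul_mul_assoc, mul_smul_comm, h1]
  have hDD : ∀ g ∈ EE, ∀ g' ∈ EE, (g * τ * g⁻¹ * τ⁻¹) * (g' * τ * g'⁻¹ * τ⁻¹) =
      (g' * τ * g'⁻¹ * τ⁻¹) * (g * τ * g⁻¹ * τ⁻¹) := by
    intro g hg g' hg'
    obtain ⟨x, y, hxy⟩ := hD g hg
    obtain ⟨x', y', hxy'⟩ := hD g' hg'
    refine Units.ext ?_
    rw [Units.val_mul (g * τ * g⁻¹ * τ⁻¹), Units.val_mul (g' * τ * g'⁻¹ * τ⁻¹), hxy, hxy']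
    simp only [add_mul, mul_add, smul_mul_assoc, mul_smul_comm, one_mul, mul_one]
    module
  -- `(g g') τ (g g')⁻¹ = D g' D g τ`
  have hprod : ∀ g ∈ EE, ∀ g' ∈ EE, (g * g') * τ * (g * g')⁻¹ = (g' * τ * g'⁻¹ * τ⁻¹) * (g * τ * g⁻¹ * τ⁻¹) * τ := by
    intro g hg g' hg'
    have h1 : g' * τ * g'⁻¹ = (g' * τ * g'⁻¹ * τ⁻¹) * τ := by rw [inv_mul_cancel_right]
    calc (g * g') * τ * (g * g')⁻¹ = g * (g' * τ * g'⁻¹) * g⁻¹ := by group
      _ = g * ((g' * τ * g'⁻¹ * τ⁻¹) * τ) * g⁻¹ := by rw [← h1]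
      _ = (g * (g' * τ * g'⁻¹ * τ⁻¹)) * τ * g⁻¹ := by simp only [mul_assoc]
      _ = ((g' * τ * g'⁻¹ * τ⁻¹) * g) * τ * g⁻¹ := by rw [hDc g' hg' g hg]
      _ = _ := by group
  have hle : ⁅EE, EE⁆ ≤ centralizer {τ} := by
    rw [commutator_le]
    intro g hg g' hg'
    rw [mem_centralizer_singleton_iff]
    have h1 := hprod g⁻¹ (inv_mem hg) g'⁻¹ (inv_mem hg')
    have h2 := hprod g'⁻¹ (inv_mem hg') g⁻¹ (inv_mem hg)
    rw [hDD g⁻¹ (inv_mem hg) g'⁻¹ (inv_mem hg')] at h2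
    have h3 := h1.trans h2.symm
    -- `(g⁻¹ g'⁻¹) τ (g⁻¹ g'⁻¹)⁻¹ = (g'⁻¹ g⁻¹) τ (g'⁻¹ g⁻¹)⁻¹`
    have e1 : (g * g' * g⁻¹ * g'⁻¹) * τ = g * g' * ((g⁻¹ * g'⁻¹) * τ * (g⁻¹ * g'⁻¹)⁻¹) * (g⁻¹ * g'⁻¹) := by group
    have e2 : g * g' * ((g'⁻¹ * g⁻¹) * τ * (g'⁻¹ * g⁻¹)⁻¹) * (g⁻¹ * g'⁻¹) = τ * (g * g' * g⁻¹ * g'⁻¹) := by group
    change (g * g' * g⁻¹ * g'⁻¹) * τ = τ * (g * g' * g⁻¹ * g'⁻¹)
    rw [e1, h3, e2]
  have h1 : g ∈ centralizer {τ} := hle (hE.symm ▸ hg)
  exact (mem_centralizer_singleton_iff.1 h1).symm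

/-- the outcome: two commuting elements -/
structure OutAB (h : LinearMap.BilinForm K W) (NN : Subgroup (Module.End K W)ˣ) (J a b : (Module.End K W)ˣ)
    (v₁ v₂ v₃ : W) : Prop where
  ai : a ∈ isoms h
  bi : b ∈ isoms h
  an : ∀ n ∈ NN, a * n = n * a
  bn : ∀ n ∈ NN, b * n = n * b
  ab : a * b = b * a
  a4 : a * (a * (a * a)) = 1
  b2 : b * b = 1
  h1 : h v₁ v₁ = 1
  h2 : h v₂ v₂ = 1
  h3 : h v₃ v₃ = 1
  a1 : a • v₁ = J • v₁
  a2 : a • v₂ = v₂
  a3 : a • v₃ = v₃
  b1 : b • v₁ = v₁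
  b2' : b • v₂ = -v₂
  b3 : b • v₃ = v₃

/-- three planes -/
theorem three_planes (F : Full h NN J A S c) {v₁ v₂ v₃ : W} (h1 : v₁ ∈ S) (h2 : v₂ ∈ S) (h3 : v₃ ∈ S)
    (h12 : v₁ ≠ v₂) (h13 : v₁ ≠ v₃) (h23 : v₂ ≠ v₃) :
    ∃ a b : (Module.End K W)ˣ, OutAB h NN J a b v₁ v₂ v₃ := by
  have hEJ : ∀ u, F.E v₁ (J • u) = J • F.E v₁ u := fun u => F.E_smul v₁ F.D.J_mem u
  have hEE : ∀ u, F.E v₁ (F.E v₁ u) = F.E v₁ u := fun u => congrArg (fun f : Module.End K W => f u) (F.E_idem h1)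
  have hEE2 : ∀ u, F.E v₂ (F.E v₂ u) = F.E v₂ u := fun u => congrArg (fun f : Module.End K W => f u) (F.E_idem h2)
  have h12' : ∀ u, F.E v₁ (F.E v₂ u) = 0 := fun u => congrArg (fun f : Module.End K W => f u) (F.E_orth h1 h2 h12)
  have h21' : ∀ u, F.E v₂ (F.E v₁ u) = 0 := fun u => congrArg (fun f : Module.End K W => f u) (F.E_orth h2 h1 h12.symm)
  let a0 : Module.End K W := 1 - F.E v₁ + (J : Module.End K W) * F.E v₁
  let a0' : Module.End K W := 1 - F.E v₁ - (J : Module.End K W) * F.E v₁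
  have ha0 : ∀ u, a0 u = u - F.E v₁ u + J • F.E v₁ u := fun u => rfl
  have ha0' : ∀ u, a0' u = u - F.E v₁ u - J • F.E v₁ u := fun u => rfl
  have ha0a : a0 * a0' = 1 := by
    refine LinearMap.ext fun u => ?_
    change a0 (a0' u) = u
    rw [ha0, ha0', map_sub, map_sub, hEJ, hEE, sub_self, zero_sub, smul_neg, F.D.JJ]
    abel
  have ha0b : a0' * a0 = 1 := by
    refine LinearMap.ext fun u => ?_
    change a0' (a0 u) = u
    rw [ha0', ha0, map_add, map_sub, hEJ, hEE, sub_self, zero_add, F.D.JJ]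
    abel
  let a : (Module.End K W)ˣ := ⟨a0, a0', ha0a, ha0b⟩
  have ha : ∀ u, a • u = u - F.E v₁ u + J • F.E v₁ u := fun u => rfl
  let b0 : Module.End K W := 1 - (2 : K) • F.E v₂
  have hb0 : ∀ u, b0 u = u - (2 : K) • F.E v₂ u := fun u => rfl
  have hbb : b0 * b0 = 1 := by
    refine LinearMap.ext fun u => ?_
    change b0 (b0 u) = u
    rw [hb0, hb0, map_sub, LinearMap.map_smul, hEE2]
    generalize F.E v₂ u = w₂
    module
  let b : (Module.End K W)ˣ := ⟨b0, b0, hbb, hbb⟩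
  have hb : ∀ u, b • u = u - (2 : K) • F.E v₂ u := fun u => rfl
  have ev : ∀ {v : W}, v ∈ S → F.E v v = v := by
    intro v hv
    have := F.E_self hv (one_mem NN)
    rwa [one_smul] at this
  have evw : ∀ {v w : W}, v ∈ S → w ∈ S → v ≠ w → F.E v w = 0 := by
    intro v w hv hw hvw
    have := F.E_other hv hw hvw (one_mem NN)
    rwa [one_smul] at this
  have hsmJ : ∀ u v, h (J • u) v = - h u (J • v) := F.D.hJl
  refine ⟨a, b, ⟨?_, ?_, ?_, ?_, ?_, ?_, ?_, F.Y.one _ h1, F.Y.one _ h2, F.Y.one _ h3, ?_, ?_, ?_, ?_, ?_, ?_⟩⟩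
  · intro u v
    rw [ha, ha]
    have k1 : h (F.E v₁ u) v = h u (F.E v₁ v) := F.E_adj _ _ _
    have k2 : h (F.E v₁ u) (F.E v₁ v) = h u (F.E v₁ v) := by rw [F.E_adj, hEE]
    have k3 : h (J • F.E v₁ u) (J • F.E v₁ v) = h u (F.E v₁ v) := by rw [F.D.hJ, k2]
    have k4 : h (J • F.E v₁ u) v = - h u (J • F.E v₁ v) := by rw [hsmJ, F.E_adj, hEJ]
    have k5 : h (J • F.E v₁ u) (F.E v₁ v) = - h u (J • F.E v₁ v) := by rw [hsmJ, F.E_adj, hEJ, hEE]
    have k6 : h (F.E v₁ u) (J • F.E v₁ v) = h u (J • F.E v₁ v) := by rw [F.E_adj, hEJ, hEE]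
    simp only [map_add, map_sub, LinearMap.add_apply, LinearMap.sub_apply, k1, k2, k3, k4, k5, k6]
    ring
  · intro u v
    rw [hb, hb]
    have k1 : h (F.E v₂ u) v = h u (F.E v₂ v) := F.E_adj _ _ _
    have k2 : h (F.E v₂ u) (F.E v₂ v) = h u (F.E v₂ v) := by rw [F.E_adj, hEE2]
    simp only [map_sub, LinearMap.sub_apply, LinearMap.map_smul, LinearMap.smul_apply, smul_eq_mul, k1, k2]
    ring
  · intro n hn
    refine Units.ext (LinearMap.ext fun u => ?_)
    change a • n • u = n • a • u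
    rw [ha, ha, F.E_smul v₁ hn, smul_add, smul_sub, ← mul_smul J n, ← F.D.cen n hn, mul_smul]
  · intro n hn
    refine Units.ext (LinearMap.ext fun u => ?_)
    change b • n • u = n • b • u
    rw [hb, hb, F.E_smul v₂ hn, smul_sub, smul_comm n (2 : K)]
  · refine Units.ext (LinearMap.ext fun u => ?_)
    change a • b • u = b • a • u
    rw [ha (b • u), hb (a • u), hb u, ha u]
    have k1 : F.E v₁ (u - (2 : K) • F.E v₂ u) = F.E v₁ u := by
      rw [map_sub, LinearMap.map_smul, h12', smul_zero, sub_zero]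
    have k2 : F.E v₂ (u - F.E v₁ u + J • F.E v₁ u) = F.E v₂ u := by
      rw [map_add, map_sub, h21', F.E_smul v₂ F.D.J_mem, h21', smul_zero, sub_zero, add_zero]
    rw [k1, k2]
    abel
  · refine Units.ext (LinearMap.ext fun u => ?_)
    change a • a • a • a • u = u
    have h5 : ∀ u, a • a • u = u - (2 : K) • F.E v₁ u := by
      intro u
      rw [ha, ha, map_add, map_sub, hEJ, hEE, sub_self, zero_add, F.D.JJ]
      generalize J • F.E v₁ u = w₁
      generalize F.E v₁ u = w₂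
      module
    rw [h5, h5, map_sub, LinearMap.map_smul, hEE]
    generalize F.E v₁ u = w₂
    module
  · exact Units.ext hbb
  · rw [ha, ev h1, sub_self, zero_add]
  · rw [ha, evw h1 h2 h12, smul_zero, sub_zero, add_zero]
  · rw [ha, evw h1 h3 h13, smul_zero, sub_zero, add_zero]
  · rw [hb, evw h2 h1 h12.symm, smul_zero, sub_zero]
  · rw [hb, ev h2]
    module
  · rw [hb, evw h2 h3 h23, smul_zero, sub_zero]

/-- the outcome: the anti-isometry `t` -/
structure OutT (h : LinearMap.BilinForm K W) (NN EE : Subgroup (Module.End K W)ˣ) (J t : (Module.End K W)ˣ) : Prop where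
  anti : ∀ u v, h (t • u) (t • v) = - h u v
  tJ : t * J = -(J * t)
  tn : ∀ n ∈ NN, t * n = n * t ∨ t * n = -(n * t)
  te : ∀ e ∈ EE, t * e = e * t

/-- from an isometry `τ` to `(α + β J) τ` -/
theorem outT_of (D : Dat h NN J) {EE : Subgroup (Module.End K W)ˣ} (hc : EE ≤ cen h NN) {τ : (Module.End K W)ˣ}
    (hτ : τ ∈ isoms h) (hτJ : τ * J = -(J * τ)) (hτn : ∀ n ∈ NN, τ * n = n * τ ∨ τ * n = -(n * τ))
    (hτe : ∀ e ∈ EE, τ * e = e * τ) {α β : K} (hαβ : α ^ 2 + β ^ 2 = -1) : ∃ t, OutT h NN EE J t := by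
  let p : Module.End K W := α • (1 : Module.End K W) + β • (J : Module.End K W)
  let p' : Module.End K W := -α • (1 : Module.End K W) + β • (J : Module.End K W)
  have hp : ∀ u, p u = α • u + β • J • u := fun u => rfl
  have hp' : ∀ u, p' u = -α • u + β • J • u := fun u => rfl
  have hpp : p * p' = 1 := by
    refine LinearMap.ext fun u => ?_
    change p (p' u) = u
    rw [hp, hp', smul_add J, smul_comm J (-α), smul_comm J β, D.JJ]
    generalize J • u = w₁
    have : α • (-α • u + β • w₁) + β • (-α • w₁ + β • -u) = (-(α ^ 2 + β ^ 2)) • u := by module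
    rw [this, hαβ, neg_neg, one_smul]
  have hpp' : p' * p = 1 := by
    refine LinearMap.ext fun u => ?_
    change p' (p u) = u
    rw [hp, hp', smul_add J, smul_comm J α, smul_comm J β, D.JJ]
    generalize J • u = w₁
    have : -α • (α • u + β • w₁) + β • (α • w₁ + β • -u) = (-(α ^ 2 + β ^ 2)) • u := by module
    rw [this, hαβ, neg_neg, one_smul]
  let P : (Module.End K W)ˣ := ⟨p, p', hpp, hpp'⟩
  have hP : ∀ u, P • u = α • u + β • J • u := fun u => (show P • u = p u from rfl).trans (hp u)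
  have hPc : ∀ g : (Module.End K W)ˣ, g * J = J * g → g * P = P * g := by
    intro g hg
    refine Units.ext (LinearMap.ext fun u => ?_)
    change g • P • u = P • g • u
    rw [hP, hP, smul_add, smul_comm g α, smul_comm g β, ← mul_smul g J, hg, mul_smul]
  have hPJ : P * J = J * P := (hPc J rfl).symm
  refine ⟨P * τ, ⟨fun u v => ?_, ?_, fun n hn => ?_, fun e he => ?_⟩⟩
  · rw [mul_smul, mul_smul, hP, hP]
    have k1 : h (J • τ • u) (τ • v) = - h (τ • u) (J • τ • v) := D.hJl _ _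
    have k2 : h (J • τ • u) (J • τ • v) = h (τ • u) (τ • v) := D.hJ _ _
    have k3 : h (τ • u) (τ • v) = h u v := hτ u v
    simp only [map_add, LinearMap.add_apply, LinearMap.map_smul, LinearMap.smul_apply, smul_eq_mul, k1, k2, k3]
    linear_combination (h u v) * hαβ
  · rw [mul_assoc, hτJ, mul_neg, ← mul_assoc, hPJ, mul_assoc]
  · have hn' : n * P = P * n := hPc n (D.cen n hn)
    rcases hτn n hn with h1 | h1
    · left
      rw [mul_assoc, h1, ← mul_assoc, ← hn', mul_assoc]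
    · right
      rw [mul_assoc, h1, mul_neg, ← mul_assoc, ← hn', mul_assoc]
  · have he' : e * P = P * e := hPc e ((mem_cen.1 (hc he)).2 J D.J_mem).symm
    rw [mul_assoc, hτe e he, ← mul_assoc, ← he', mul_assoc]

/-- **the structure lemma, alternating case** -/
theorem str_alt [Finite K] [Finite W] [Nontrivial W] (D : Dat h NN J) {EE : Subgroup (Module.End K W)ˣ}
    (hE : ⁅EE, EE⁆ = EE) (hc : EE ≤ cen h NN) :
    (∃ (a b : (Module.End K W)ˣ) (v₁ v₂ v₃ : W), OutAB h NN J a b v₁ v₂ v₃) ∨ ∃ t, OutT h NN EE J t := by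
  classical
  obtain ⟨α, β, hαβ⟩ := exists_two_sq D.two (-1 : K)
  obtain ⟨A, S, c, F⟩ := exists_full D
  by_cases h3 : 2 < S.card
  · obtain ⟨v₁, h1, v₂, h2, v₃, h3, h12, h13, h23⟩ := Finset.two_lt_card.1 h3
    obtain ⟨a, b, hab⟩ := three_planes F h1 h2 h3 h12 h13 h23
    exact Or.inl ⟨a, b, v₁, v₂, v₃, hab⟩
  · right
    by_cases hd : ∀ v ∈ S, ∀ w ∈ S, v ≠ w → ∀ n ∈ NN, ¬ Dat.Same F.M (n • w) v
    · -- different orbits: `EE` is trivial
      have hcomm := F.comm_of_distinct hd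
      have hE1 : ∀ e ∈ EE, e = 1 := by
        have h4 : ⁅EE, EE⁆ ≤ ⊥ := by
          rw [commutator_le]
          intro g hg g' hg'
          rw [mem_bot, commutatorElement_eq_one_iff_mul_comm]
          exact hcomm g (hc hg) g' (hc hg')
        intro e he
        exact mem_bot.1 (h4 (hE.symm ▸ he))
      refine outT_of D hc (τ := F.Tu) F.Tu_iso ?_ ?_ ?_ hαβ
      · rcases F.Tu_comm D.J_mem with ⟨h5, h6⟩ | ⟨h5, h6⟩
        · exfalso
          rw [F.cJ] at h5
          have h7 : (2 : K) = 0 := by linear_combination -h5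
          exact D.two h7
        · exact h6
      · intro n hn
        rcases F.Tu_comm hn with ⟨_, h6⟩ | ⟨_, h6⟩
        · exact Or.inl h6
        · exact Or.inr h6
      · intro e he
        rw [hE1 e he, one_mul, mul_one]
    · push Not at hd
      obtain ⟨v, hv, w, hw, hvw, n, hn, hs⟩ := hd
      have hS : ∀ x ∈ S, x = v ∨ x = w := by
        intro x hx
        by_contra hcon
        push Not at hcon
        exact h3 (Finset.two_lt_card.2 ⟨x, hx, v, hv, w, hw, hcon.1, hcon.2, hvw⟩)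
      obtain ⟨F', X⟩ := replace F hv hw hvw hS hn hs
      refine outT_of D hc (τ := F'.Tu * F'.Ru X) (mul_mem F'.Tu_iso (F'.Ru_iso X)) ?_ ?_
        (fun e he => perfect_comm F' X hE hc he) hαβ
      · rw [mul_assoc, F'.Ru_comm X D.J_mem, ← mul_assoc]
        rcases F'.Tu_comm D.J_mem with ⟨h5, h6⟩ | ⟨h5, h6⟩
        · exfalso
          rw [F'.cJ] at h5
          have h7 : (2 : K) = 0 := by linear_combination -h5
          exact D.two h7
        · rw [h6, neg_mul, mul_assoc]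
      · intro n hn
        rcases F'.Tu_comm hn with ⟨_, h6⟩ | ⟨_, h6⟩
        · left
          rw [mul_assoc, F'.Ru_comm X hn, ← mul_assoc, h6, mul_assoc]
        · right
          rw [mul_assoc, F'.Ru_comm X hn, ← mul_assoc, h6, neg_mul, mul_assoc]

end Cfsg.Agent.H105.C3
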